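import Mathlib

/-! The largest abelian subgroups of symmetric and alternating groups. -/

set_option autoImplicit false

namespace CfsgLib.Perm.AbelianOrder

open Equiv

/-- the largest product of a partition of `n` -/
def B (n : ℕ) : ℕ :=
  if n % 3 = 0 then 3 ^ (n / 3) else if n % 3 = 1 then (if n = 1 then 1 else 4 * 3 ^ (n / 3 - 1)) else 2 * 3 ^ (n / 3)

/-- the bound for even abelian groups -/
def C (n : ℕ) : ℕ :=
  if n % 3 = 2 then (if n = 2 then 1 else if n = 5 then 5 else 16 * 3 ^ (n / 3 - 2)) else B n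

theorem B_three {n : ℕ} (h : 2 ≤ n) : B (n + 3) = 3 * B n := by
  obtain ⟨q, rfl | rfl | rfl⟩ : ∃ q, n = 3 * q ∨ n = 3 * q + 1 ∨ n = 3 * q + 2 :=
    ⟨n / 3, by omega⟩
  · rw [B, B, if_pos (by omega), if_pos (by omega), show (3 * q + 3) / 3 = q + 1 by omega,
      show 3 * q / 3 = q by omega, pow_succ']
  · obtain ⟨q, rfl⟩ : ∃ q', q = q' + 1 := ⟨q - 1, by omega⟩
    rw [B, B, if_neg (by omega), if_pos (by omega), if_neg (by omega), if_neg (by omega), if_pos (by omega),
      if_neg (by omega), show (3 * (q + 1) + 1 + 3) / 3 - 1 = q + 1 by omega,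
      show (3 * (q + 1) + 1) / 3 - 1 = q by omega, pow_succ']
    ring
  · rw [B, B, if_neg (by omega), if_neg (by omega), if_neg (by omega), if_neg (by omega),
      show (3 * q + 2 + 3) / 3 = q + 1 by omega, show (3 * q + 2) / 3 = q by omega, pow_succ']
    ring

theorem three_B (n : ℕ) : 3 * B n ≤ B (n + 3) := by
  rcases Nat.lt_or_ge n 2 with h | h
  · interval_cases n <;> decide
  · exact (B_three h).ge

theorem shift (c a : ℕ) (h : ∀ m < 5, c * B m ≤ B (m + a)) : ∀ m, c * B m ≤ B (m + a) := by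
  intro m
  induction m using Nat.strongRecOn with
  | _ m ih =>
    rcases Nat.lt_or_ge m 5 with h5 | h5
    · exact h m h5
    · obtain ⟨l, rfl⟩ : ∃ l, m = l + 3 := ⟨m - 3, by omega⟩
      rw [B_three (by omega), show l + 3 + a = (l + a) + 3 by omega, B_three (by omega)]
      calc c * (3 * B l) = 3 * (c * B l) := by ring
        _ ≤ 3 * B (l + a) := Nat.mul_le_mul_left 3 (ih l (by omega))

theorem mul_B_le : ∀ r, 1 ≤ r → ∀ m, r * B m ≤ B (r + m) := by
  intro r
  induction r using Nat.strongRecOn with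
  | _ r ih =>
    intro hr m
    rw [add_comm r m]
    rcases Nat.lt_or_ge r 5 with h5 | h5
    · refine shift r r (fun m hm => ?_) m
      interval_cases r <;> interval_cases m <;> decide
    · obtain ⟨s, rfl⟩ : ∃ s, r = s + 3 := ⟨r - 3, by omega⟩
      calc (s + 3) * B m ≤ 3 * s * B m := Nat.mul_le_mul_right _ (by omega)
        _ = 3 * (s * B m) := by ring
        _ ≤ 3 * B (s + m) := Nat.mul_le_mul_left 3 (ih s (by omega) (by omega) m)
        _ ≤ B (s + m + 3) := three_B _
        _ = _ := by congr 1; omega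

theorem B_eq_of_ne {n : ℕ} (h : n % 3 ≠ 2) : C n = B n := if_neg h

theorem C_le_B (n : ℕ) : C n ≤ B n := by
  by_cases h : n % 3 = 2
  · rw [C, B, if_pos h, if_neg (show ¬ n % 3 = 0 by omega), if_neg (show ¬ n % 3 = 1 by omega)]
    split_ifs with h1 h2
    · exact Nat.one_le_iff_ne_zero.2 (by positivity)
    · subst h2; decide
    · obtain ⟨q, hq⟩ : ∃ q, n / 3 = q + 2 := ⟨n / 3 - 2, by omega⟩
      rw [hq, Nat.add_sub_cancel, pow_add]
      have := Nat.pow_pos (n := q) (show 0 < 3 by norm_num)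
      nlinarith
  · exact (B_eq_of_ne h).le

theorem half_B (n : ℕ) : B n ≤ 2 * C n := by
  by_cases h : n % 3 = 2
  · rw [C, B, if_pos h, if_neg (show ¬ n % 3 = 0 by omega), if_neg (show ¬ n % 3 = 1 by omega)]
    split_ifs with h1 h2
    · subst h1; decide
    · subst h2; decide
    · obtain ⟨q, hq⟩ : ∃ q, n / 3 = q + 2 := ⟨n / 3 - 2, by omega⟩
      rw [hq, Nat.add_sub_cancel, pow_add]
      omega
  · rw [B_eq_of_ne h]; omega

theorem C_three {n : ℕ} (h : 8 ≤ n) (h2 : n % 3 = 2) : C (n + 3) = 3 * C n := by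
  rw [C, C, if_pos h2, if_pos (by omega), if_neg (by omega), if_neg (by omega), if_neg (by omega), if_neg (by omega),
    show (n + 3) / 3 - 2 = (n / 3 - 2) + 1 by omega, pow_succ']
  ring

theorem mul_B_le_C : ∀ r, 4 ≤ r → ∀ m, (r + m) % 3 = 2 → r * B m ≤ C (r + m) := by
  intro r
  induction r using Nat.strongRecOn with
  | _ r ih =>
    intro hr m hm
    rcases Nat.lt_or_ge r 7 with h7 | h7
    · induction m using Nat.strongRecOn with
      | _ m ihm =>
        rcases Nat.lt_or_ge m 5 with h5 | h5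
        · interval_cases r <;> interval_cases m <;> first | decide | omega
        · obtain ⟨l, rfl⟩ : ∃ l, m = l + 3 := ⟨m - 3, by omega⟩
          by_cases h8 : 8 ≤ r + l
          · rw [B_three (by omega), show r + (l + 3) = r + l + 3 by omega, C_three h8 (by omega)]
            calc r * (3 * B l) = 3 * (r * B l) := by ring
              _ ≤ _ := Nat.mul_le_mul_left 3 (ihm l (by omega) (by omega))
          · have : l < 8 := by omega
            interval_cases r <;> interval_cases l <;> first | decide | omega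
    · obtain ⟨s, rfl⟩ : ∃ s, r = s + 3 := ⟨r - 3, by omega⟩
      have h1 := ih s (by omega) (by omega) m (by omega)
      calc (s + 3) * B m ≤ 3 * s * B m := Nat.mul_le_mul_right _ (by omega)
        _ = 3 * (s * B m) := by ring
        _ ≤ 3 * C (s + m) := Nat.mul_le_mul_left 3 h1
        _ ≤ C (s + 3 + m) := by
            by_cases h8 : 8 ≤ s + m
            · rw [show s + 3 + m = s + m + 3 by omega, C_three h8 (by omega)]
            · rw [show s + m = 5 by omega, show s + 3 + m = 8 by omega]; decide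

theorem mul_C_le {r : ℕ} (hr : 1 ≤ r) (h2 : r ≠ 2) (m : ℕ) : r * C m ≤ C (r + m) := by
  by_cases h : (r + m) % 3 = 2
  · rcases Nat.lt_or_ge r 4 with h4 | h4
    · obtain rfl | rfl : r = 1 ∨ r = 3 := by omega
      · obtain ⟨q, rfl⟩ : ∃ q, m = 3 * q + 1 := ⟨m / 3, by omega⟩
        rcases Nat.lt_or_ge q 2 with h' | h'
        · interval_cases q <;> decide
        · obtain ⟨p, rfl⟩ : ∃ p, q = p + 2 := ⟨q - 2, by omega⟩
          rw [one_mul, C, C, if_neg (show ¬ (3 * (p + 2) + 1) % 3 = 2 by omega), if_pos (show (1 + (3 * (p + 2) + 1)) % 3 = 2 by omega),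
            B, if_neg (show ¬ (3 * (p + 2) + 1) % 3 = 0 by omega), if_pos (show (3 * (p + 2) + 1) % 3 = 1 by omega),
            if_neg (by omega), if_neg (by omega), if_neg (by omega),
            show (3 * (p + 2) + 1) / 3 - 1 = p + 1 by omega, show (1 + (3 * (p + 2) + 1)) / 3 - 2 = p by omega, pow_succ]
          omega
      · by_cases h8 : 8 ≤ m
        · rw [add_comm 3 m, C_three h8 (by omega)]
        · interval_cases m <;> first | decide | omega
    · exact (Nat.mul_le_mul_left r (C_le_B m)).trans (mul_B_le_C r h4 m h)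
  · rw [B_eq_of_ne h]
    exact (Nat.mul_le_mul_left r (C_le_B m)).trans (mul_B_le r hr m)

section

variable {X : Type*} [Fintype X] [DecidableEq X]

/-- one orbit split off -/
theorem step (A : Subgroup (Perm X)) (hA : ∀ a ∈ A, ∀ b ∈ A, a * b = b * a) (x : X) :
    ∃ (p : X → Prop) (_ : DecidablePred p) (R₁ : Subgroup (Perm {y // p y})) (R₂ : Subgroup (Perm {y // ¬ p y})),
      (∀ a ∈ R₂, ∀ b ∈ R₂, a * b = b * a) ∧ Fintype.card {y // ¬ p y} < Fintype.card X ∧
      1 ≤ Fintype.card {y // p y} ∧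
      Fintype.card {y // p y} + Fintype.card {y // ¬ p y} = Fintype.card X ∧
      Nat.card R₁ ≤ Fintype.card {y // p y} ∧ Nat.card A ∣ Nat.card R₁ * Nat.card R₂ ∧
      ((∀ a ∈ A, Equiv.Perm.sign a = 1) → Nat.card A = Nat.card R₁ * Nat.card R₂ →
        (∀ b ∈ R₂, Equiv.Perm.sign b = 1) ∧ Fintype.card {y // p y} ≠ 2) := by
  classical
  let p : X → Prop := fun y => ∃ a ∈ A, a x = y
  have hp : ∀ a ∈ A, ∀ y, p (a y) ↔ p y := by
    intro a ha y
    constructor
    · rintro ⟨b, hb, h⟩
      exact ⟨a⁻¹ * b, A.mul_mem (A.inv_mem ha) hb, by rw [Perm.mul_apply, h]; exact a.symm_apply_apply y⟩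
    · rintro ⟨b, hb, rfl⟩
      exact ⟨a * b, A.mul_mem ha hb, rfl⟩
  let r₁ : A →* Perm {y // p y} := MonoidHom.mk' (fun a => (a : Perm X).subtypePerm fun y => hp a a.2 y)
    fun a b => Equiv.ext fun y => Subtype.ext rfl
  let r₂ : A →* Perm {y // ¬ p y} := MonoidHom.mk' (fun a => (a : Perm X).subtypePerm fun y => not_congr (hp a a.2 y))
    fun a b => Equiv.ext fun y => Subtype.ext rfl
  have hx : p x := ⟨1, A.one_mem, rfl⟩
  have e : ∀ a : A, (a : Perm X) = Equiv.Perm.subtypeCongr (r₁ a) (r₂ a) := fun a => Equiv.ext fun y => by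
    by_cases h : p y
    · rw [Equiv.Perm.subtypeCongr.left_apply _ _ h]; rfl
    · rw [Equiv.Perm.subtypeCongr.right_apply _ _ h]; rfl
  let g : A →* r₁.range × r₂.range := r₁.rangeRestrict.prod r₂.rangeRestrict
  have ginj : Function.Injective g := fun a b h => Subtype.ext (by
    have h1 := congrArg (fun z => (z.1 : Perm {y // p y})) h
    have h2 := congrArg (fun z => (z.2 : Perm {y // ¬ p y})) h
    rw [e a, e b, show r₁ a = r₁ b from h1, show r₂ a = r₂ b from h2])
  refine ⟨p, inferInstance, r₁.range, r₂.range, ?_, ?_, ?_, ?_, ?_, ?_, ?_⟩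
  · rintro _ ⟨a, rfl⟩ _ ⟨b, rfl⟩
    rw [← map_mul, ← map_mul]
    exact congrArg r₂ (Subtype.ext (hA a a.2 b b.2))
  · exact Fintype.card_subtype_lt (x := x) (fun h => h hx)
  · exact Fintype.card_pos_iff.2 ⟨⟨x, hx⟩⟩
  · rw [← Fintype.card_sum]; exact Fintype.card_congr (Equiv.sumCompl p)
  · rw [← Nat.card_eq_fintype_card]
    refine Nat.card_le_card_of_injective (fun τ => (τ : Perm {y // p y}) ⟨x, hx⟩) ?_
    rintro ⟨_, a, rfl⟩ ⟨_, b, rfl⟩ h
    refine Subtype.ext (Equiv.ext fun y => Subtype.ext ?_)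
    obtain ⟨c, hc, hcy⟩ := y.2
    have h' : (a : Perm X) x = (b : Perm X) x := congrArg Subtype.val h
    show (a : Perm X) y = (b : Perm X) y
    rw [← hcy, ← Perm.mul_apply, ← Perm.mul_apply, hA a a.2 c hc, hA b b.2 c hc, Perm.mul_apply, Perm.mul_apply, h']
  · rw [← Nat.card_prod]
    exact Subgroup.card_dvd_of_injective g ginj
  · intro hev hcard
    have gsurj : Function.Surjective g :=
      ((Nat.bijective_iff_injective_and_card g).2 ⟨ginj, by rw [hcard, Nat.card_prod]⟩).2
    refine ⟨?_, ?_⟩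
    · rintro _ ⟨b, rfl⟩
      obtain ⟨a, ha⟩ := gsurj (1, r₂.rangeRestrict b)
      have h1 : r₁ a = 1 := congrArg (fun z => (z.1 : Perm {y // p y})) ha
      have h2 : r₂ a = r₂ b := congrArg (fun z => (z.2 : Perm {y // ¬ p y})) ha
      have := hev a a.2
      rw [e a, Equiv.Perm.sign_subtypeCongr, h1, h2, map_one, one_mul] at this
      exact this
    · intro h2c
      obtain ⟨u, v, huv⟩ := Fintype.exists_pair_of_one_lt_card (α := {y // p y}) (by omega)
      obtain ⟨w, hw⟩ : ∃ w : {y // p y}, w ≠ ⟨x, hx⟩ := by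
        by_cases h : u = ⟨x, hx⟩
        · exact ⟨v, fun h' => huv (h.trans h'.symm)⟩
        · exact ⟨u, h⟩
      obtain ⟨c, hc, hcw⟩ := w.2
      have hne : r₁ ⟨c, hc⟩ ≠ 1 := fun h => by
        have e : c x = x := congrArg (fun σ : Perm {y // p y} => ((σ ⟨x, hx⟩ : {y // p y}) : X)) h
        exact hw (Subtype.ext (hcw.symm.trans e))
      obtain ⟨a, ha⟩ := gsurj (r₁.rangeRestrict ⟨c, hc⟩, 1)
      have h1 : r₁ a = r₁ ⟨c, hc⟩ := congrArg (fun z => (z.1 : Perm {y // p y})) ha
      have h2 : r₂ a = 1 := congrArg (fun z => (z.2 : Perm {y // ¬ p y})) ha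
      have hs := hev a a.2
      rw [e a, Equiv.Perm.sign_subtypeCongr, h1, h2, map_one, mul_one] at hs
      have hsupp : (r₁ ⟨c, hc⟩).support.card = 2 := by
        have := Finset.card_le_univ (r₁ ⟨c, hc⟩).support
        have h0 : (r₁ ⟨c, hc⟩).support.card ≠ 0 := fun h => hne (Equiv.Perm.card_support_eq_zero.1 h)
        have h1 := Equiv.Perm.card_support_ne_one (r₁ ⟨c, hc⟩)
        omega
      rw [(Equiv.Perm.card_support_eq_two.1 hsupp).sign_eq] at hs
      exact absurd hs (by decide)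

end

universe u

theorem upper : ∀ (N : ℕ) (X : Type u) [Fintype X] [DecidableEq X] (A : Subgroup (Perm X)), Fintype.card X = N →
    (∀ a ∈ A, ∀ b ∈ A, a * b = b * a) →
    Nat.card A ≤ B N ∧ ((∀ a ∈ A, Equiv.Perm.sign a = 1) → Nat.card A ≤ C N) := by
  intro N
  induction N using Nat.strongRecOn with
  | _ N ih =>
    intro X _ _ A hN hA
    subst hN
    rcases isEmpty_or_nonempty X with hX | ⟨⟨x⟩⟩
    · have : Nat.card A ≤ 1 := by rw [Finite.card_le_one_iff_subsingleton]; infer_instance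
      rw [Fintype.card_eq_zero]
      exact ⟨this.trans (by decide), fun _ => this.trans (by decide)⟩
    obtain ⟨p, hdp, R₁, R₂, hR₂, hlt, hr, hsum, hR₁, hdvd, hev⟩ := step A hA x
    obtain ⟨hB, hC⟩ := ih _ hlt {y // ¬ p y} R₂ rfl hR₂
    have hpos : 0 < Nat.card R₁ * Nat.card R₂ := Nat.mul_pos Nat.card_pos Nat.card_pos
    have hb : Nat.card A ≤ Nat.card R₁ * Nat.card R₂ := Nat.le_of_dvd hpos hdvd
    have h1 : Nat.card R₁ * Nat.card R₂ ≤ B (Fintype.card X) := by
      rw [← hsum]
      exact (Nat.mul_le_mul hR₁ hB).trans (mul_B_le _ hr _)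
    refine ⟨hb.trans h1, fun hs => ?_⟩
    by_cases heq : Nat.card A = Nat.card R₁ * Nat.card R₂
    · obtain ⟨hs₂, hne⟩ := hev hs heq
      rw [heq, ← hsum]
      exact (Nat.mul_le_mul hR₁ (hC hs₂)).trans (mul_C_le hr hne _)
    · obtain ⟨d, hd⟩ := hdvd
      have hd2 : 2 ≤ d := by
        by_contra h
        interval_cases d
        · omega
        · exact heq (by rw [hd, mul_one])
      have := Nat.mul_le_mul_left (Nat.card A) hd2
      have := half_B (Fintype.card X)
      omega

/-- realised orders -/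
def Real (n c : ℕ) (even : Bool) : Prop :=
  ∃ A : Subgroup (Perm (Fin n)), (∀ a ∈ A, ∀ b ∈ A, a * b = b * a) ∧ Nat.card A = c ∧
    (even = true → ∀ a ∈ A, Equiv.Perm.sign a = 1)

theorem Real.add {a b c d : ℕ} {e : Bool} (h₁ : Real a c e) (h₂ : Real b d e) : Real (a + b) (c * d) e := by
  classical
  obtain ⟨A, hA, hAc, hAe⟩ := h₁
  obtain ⟨A', hA', hAc', hAe'⟩ := h₂
  let f : A × A' →* Perm (Fin (a + b)) :=
    (Equiv.permCongrHom finSumFinEquiv).toMonoidHom.comp ((Equiv.Perm.sumCongrHom (Fin a) (Fin b)).comp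
      (A.subtype.prodMap A'.subtype))
  have finj : Function.Injective f :=
    (Equiv.permCongrHom finSumFinEquiv).injective.comp (Equiv.Perm.sumCongrHom_injective.comp
      (Prod.map_injective.2 ⟨A.subtype_injective, A'.subtype_injective⟩))
  refine ⟨f.range, ?_, ?_, ?_⟩
  · rintro _ ⟨x, rfl⟩ _ ⟨y, rfl⟩
    rw [← map_mul, ← map_mul]
    exact congrArg f (Prod.ext (Subtype.ext (hA _ x.1.2 _ y.1.2)) (Subtype.ext (hA' _ x.2.2 _ y.2.2)))
  · rw [← Nat.card_congr (MonoidHom.ofInjective finj).toEquiv, Nat.card_prod, hAc, hAc']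
  · rintro he _ ⟨x, rfl⟩
    show Equiv.Perm.sign ((finSumFinEquiv).permCongr (Equiv.Perm.sumCongr (x.1 : Perm (Fin a)) (x.2 : Perm (Fin b)))) = 1
    rw [Equiv.Perm.sign_permCongr, Equiv.Perm.sign_sumCongr, hAe he _ x.1.2, hAe' he _ x.2.2, one_mul]

theorem Real.weaken {n c : ℕ} (h : Real n c true) : Real n c false := by
  obtain ⟨A, hA, hAc, -⟩ := h
  exact ⟨A, hA, hAc, fun h => absurd h (by simp)⟩

theorem real_small (n : ℕ) (f : Fin n → Perm (Fin n)) (e : Bool)
    (hinj : ∀ i j, f i = f j → i = j) (hmul : ∀ i j, ∃ k, f i * f j = f k) (hone : ∃ k, f k = 1)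
    (hcomm : ∀ i j, f i * f j = f j * f i) (hs : e = true → ∀ i, Equiv.Perm.sign (f i) = 1) : Real n n e := by
  refine ⟨{ carrier := Set.range f
            one_mem' := hone
            mul_mem' := by
              rintro _ _ ⟨i, rfl⟩ ⟨j, rfl⟩
              obtain ⟨k, hk⟩ := hmul i j
              exact ⟨k, hk.symm⟩
            inv_mem' := by
              rintro _ ⟨i, rfl⟩
              have hpow : ∀ d : ℕ, ∃ k, f i ^ d = f k := by
                intro d
                induction d with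
                | zero => obtain ⟨k, hk⟩ := hone; exact ⟨k, by rw [pow_zero, hk]⟩
                | succ d ih =>
                  obtain ⟨k, hk⟩ := ih
                  obtain ⟨l, hl⟩ := hmul k i
                  exact ⟨l, by rw [pow_succ, hk, hl]⟩
              obtain ⟨k, hk⟩ := hpow (orderOf (f i) - 1)
              refine ⟨k, ?_⟩
              rw [← hk]
              refine eq_inv_of_mul_eq_one_left ?_
              rw [← pow_succ, Nat.sub_add_cancel (orderOf_pos _), pow_orderOf_eq_one] }, ?_, ?_, ?_⟩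
  · rintro _ ⟨i, rfl⟩ _ ⟨j, rfl⟩; exact hcomm i j
  · show Nat.card (Set.range f) = n
    rw [← Nat.card_congr (Equiv.ofInjective f fun i j h => hinj i j h), Nat.card_fin]
  · rintro he _ ⟨i, rfl⟩; exact hs he i

theorem real_three : Real 3 3 true :=
  real_small 3 (![1, swap 0 1 * swap 1 2, swap 1 2 * swap 0 1]) true (by decide) (by decide) (by decide) (by decide)
    (fun _ => by decide)

theorem real_four : Real 4 4 true :=
  real_small 4 (![1, swap 0 1 * swap 2 3, swap 0 2 * swap 1 3, swap 0 3 * swap 1 2]) true (by decide) (by decide)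
    (by decide) (by decide) (fun _ => by decide)

theorem real_two : Real 2 2 false :=
  real_small 2 (![1, swap 0 1]) false (by decide) (by decide) (by decide) (by decide) (fun h => absurd h (by simp))

theorem real_threes : ∀ k : ℕ, Real (3 * k) (3 ^ k) true := by
  intro k
  induction k with
  | zero =>
    refine ⟨⊥, ?_, ?_, ?_⟩
    · intro a ha b hb; rw [Subgroup.mem_bot.1 ha, Subgroup.mem_bot.1 hb]
    · simp
    · intro _ a ha; rw [Subgroup.mem_bot.1 ha, map_one]
  | succ k ih => exact ih.add real_three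

theorem greatest_perm {n c : ℕ} (h : Real n c false) (hb : B n = c) :
    IsGreatest {c : ℕ | ∃ A : Subgroup (Perm (Fin n)), IsMulCommutative A ∧ Nat.card A = c} c := by
  obtain ⟨A, hA, hAc, -⟩ := h
  refine ⟨⟨A, ⟨⟨fun a b => Subtype.ext (hA a a.2 b b.2)⟩⟩, hAc⟩, ?_⟩
  rintro d ⟨D, hD, rfl⟩
  exact (upper n (Fin n) D (Fintype.card_fin n) fun a ha b hb' =>
    congrArg Subtype.val (hD.is_comm.comm ⟨a, ha⟩ ⟨b, hb'⟩)).1.trans hb.le

theorem greatest_alt {n c : ℕ} (h : Real n c true) (hb : C n = c) :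
    IsGreatest {c : ℕ | ∃ A : Subgroup (alternatingGroup (Fin n)), IsMulCommutative A ∧ Nat.card A = c} c := by
  obtain ⟨A, hA, hAc, hAe⟩ := h
  have hle : A ≤ alternatingGroup (Fin n) := fun a ha => Equiv.Perm.mem_alternatingGroup.2 (hAe rfl a ha)
  refine ⟨⟨A.subgroupOf (alternatingGroup (Fin n)), ⟨⟨fun a b => Subtype.ext (Subtype.ext (hA _ a.2 _ b.2))⟩⟩, ?_⟩, ?_⟩
  · rw [Nat.card_congr (Subgroup.subgroupOfEquivOfLe hle).toEquiv, hAc]
  rintro d ⟨D, hD, rfl⟩
  rw [← Subgroup.card_map_of_injective (f := (alternatingGroup (Fin n)).subtype) Subtype.val_injective]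
  refine ((upper n (Fin n) (D.map (alternatingGroup (Fin n)).subtype) (Fintype.card_fin n) ?_).2 ?_).trans hb.le
  · rintro _ ⟨a, ha, rfl⟩ _ ⟨b, hb', rfl⟩
    rw [← map_mul, ← map_mul]
    exact congrArg _ (congrArg Subtype.val (hD.is_comm.comm ⟨a, ha⟩ ⟨b, hb'⟩))
  · rintro _ ⟨a, -, rfl⟩
    exact Equiv.Perm.mem_alternatingGroup.1 a.2

end CfsgLib.Perm.AbelianOrder
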