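import Mathlib
import Cfsg.Prelude.Def_Perm
import Cfsg.Agent.Lib.Chars.Orth
import Cfsg.Agent.Lib.Chars.Linear

set_option autoImplicit false
set_option linter.style.haveILetI false
set_option linter.unusedSectionVars false

/-! The centraliser ring of a permutation representation and the multiplicities of its character. -/

namespace CfsgLib.Perm.Centraliser

open Cfsg CfsgLib.Chars Module
open scoped ComplexConjugate

variable {G : Type*} [Group G] [Fintype G] {Ω : Type*} [Fintype Ω] [MulAction G Ω]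

variable (G Ω) in
/-- The permutation character. -/
noncomputable def π : G → ℂ := fun g => (Nat.card (MulAction.fixedBy Ω g) : ℂ)

/-- Equivariance of an endomorphism of the permutation module. -/
def Equi (T : (Ω → ℂ) →ₗ[ℂ] (Ω → ℂ)) : Prop := ∀ g : G, T ∘ₗ permRep ℂ G Ω g = permRep ℂ G Ω g ∘ₗ T

theorem mem_invariants_iff (T : (Ω → ℂ) →ₗ[ℂ] (Ω → ℂ)) :
    T ∈ ((permRep ℂ G Ω).linHom (permRep ℂ G Ω)).invariants ↔ Equi (G := G) T := by
  rw [Representation.mem_invariants]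
  refine forall_congr' fun g => ?_
  rw [Representation.linHom_apply]
  constructor
  · intro h
    conv_lhs => rw [← h]
    rw [LinearMap.comp_assoc, LinearMap.comp_assoc, ← Module.End.mul_eq_comp (permRep ℂ G Ω g⁻¹), ← map_mul,
      inv_mul_cancel, map_one]
    rfl
  · intro h
    rw [← LinearMap.comp_assoc, ← h, LinearMap.comp_assoc, ← Module.End.mul_eq_comp (permRep ℂ G Ω g) (permRep ℂ G Ω g⁻¹), ← map_mul, mul_inv_cancel, map_one]
    rfl

theorem permRep_apply (g : G) (f : Ω → ℂ) (x : Ω) : permRep ℂ G Ω g f x = f (g⁻¹ • x) := rfl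

theorem permRep_single [DecidableEq Ω] (g : G) (x : Ω) :
    permRep ℂ G Ω g (Pi.single x 1) = Pi.single (g • x) 1 := by
  funext y
  rw [permRep_apply]
  simp only [Pi.single_apply, inv_smul_eq_iff]

theorem character_eq : (permRep ℂ G Ω).character = π G Ω := by
  classical
  funext g
  show LinearMap.trace ℂ _ (permRep ℂ G Ω g) = _
  rw [LinearMap.trace_eq_matrix_trace ℂ (Pi.basisFun ℂ Ω), Matrix.trace]
  have e : ∀ x, Matrix.diag (LinearMap.toMatrix (Pi.basisFun ℂ Ω) (Pi.basisFun ℂ Ω) (permRep ℂ G Ω g)) x =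
      if g • x = x then 1 else 0 := by
    intro x
    rw [Matrix.diag_apply, LinearMap.toMatrix_apply, Pi.basisFun_apply, Pi.basisFun_repr, permRep_single,
      Pi.single_apply]
    simp only [eq_comm (a := x)]
  rw [Finset.sum_congr rfl fun x _ => e x, Finset.sum_boole, π, Nat.card_eq_fintype_card, Fintype.card_subtype]
  rfl

theorem conj_π (g : G) : conj (π G Ω g) = π G Ω g := map_natCast _ _

theorem π_inv (g : G) : π G Ω g⁻¹ = π G Ω g := by
  rw [π, π, MulAction.fixedBy_inv]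

theorem isCharacter_π : IsCharacter G (π G Ω) := character_eq (G := G) (Ω := Ω) ▸ isCharacter_character _

variable (Ω) in
/-- The multiplicity of an irreducible character in the permutation character. -/
noncomputable def mult (χ : IrrCharacter G) : ℕ := (exists_mult (isCharacter_π (G := G) (Ω := Ω)) χ).choose

theorem mult_spec (χ : IrrCharacter G) : classInner (π G Ω) (χ : G → ℂ) = (mult Ω χ : ℂ) :=
  (exists_mult (isCharacter_π (G := G) (Ω := Ω)) χ).choose_spec

theorem π_expand (x : G) : π G Ω x = ∑ χ : IrrCharacter G, (mult Ω χ : ℂ) * (χ : G → ℂ) x := by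
  rw [classFunction_expand (IsCharacter.isClassFunction isCharacter_π) x]
  simp only [mult_spec]

theorem classInner_self : classInner (π G Ω) (π G Ω) = ((∑ χ : IrrCharacter G, mult Ω χ ^ 2 : ℕ) : ℂ) := by
  have h1 : classInner (fun x => ∑ χ : IrrCharacter G, (mult Ω χ : ℂ) * (χ : G → ℂ) x) (π G Ω) =
      ∑ χ : IrrCharacter G, (mult Ω χ : ℂ) * classInner (χ : G → ℂ) (π G Ω) :=
    classInner_sum _ _ (fun χ : IrrCharacter G => (χ : G → ℂ)) _
  rw [show (fun x => ∑ χ : IrrCharacter G, (mult Ω χ : ℂ) * (χ : G → ℂ) x) = π G Ω from funext fun x => (π_expand x).symm] at h1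
  rw [h1, Nat.cast_sum]
  refine Finset.sum_congr rfl fun χ _ => ?_
  have e : classInner (χ : G → ℂ) (π G Ω) = conj (classInner (π G Ω) (χ : G → ℂ)) := by
    simp only [classInner, map_mul, map_inv₀, map_natCast, map_sum, Complex.conj_conj, conj_π, mul_comm]
  rw [e, mult_spec, map_natCast, Nat.cast_pow, pow_two]

theorem finrank_equi :
    finrank ℂ ((permRep ℂ G Ω).linHom (permRep ℂ G Ω)).invariants = ∑ χ : IrrCharacter G, mult Ω χ ^ 2 := by
  haveI : Invertible (Nat.card G : ℂ) := invertibleOfNonzero (natCast_card_ne_zero G)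
  have h := Representation.card_inv_mul_sum_char_eq_finrank ((permRep ℂ G Ω).linHom (permRep ℂ G Ω))
  simp only [Representation.char_linHom, character_eq, π_inv] at h
  have h2 := classInner_self (G := G) (Ω := Ω)
  simp only [classInner, conj_π] at h2
  exact_mod_cast h.symm.trans h2

theorem finrank_hom {n : ℕ} (ρ : Representation ℂ G (Fin n → ℂ)) (χ : IrrCharacter G) (hχ : ρ.character = (χ : G → ℂ)) :
    finrank ℂ (ρ.linHom (permRep ℂ G Ω)).invariants = mult Ω χ := by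
  haveI : Invertible (Nat.card G : ℂ) := invertibleOfNonzero (natCast_card_ne_zero G)
  have h := Representation.card_inv_mul_sum_char_eq_finrank (ρ.linHom (permRep ℂ G Ω))
  simp only [Representation.char_linHom, character_eq, hχ] at h
  have h2 := mult_spec (Ω := Ω) χ
  simp only [classInner, ← IsCharacter.map_inv (isCharacter_irr χ)] at h2
  simp only [mul_comm ((χ : G → ℂ) _⁻¹)] at h
  exact_mod_cast h.symm.trans h2

/-- The central operator of an irreducible character. -/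
noncomputable def E (χ : IrrCharacter G) : (Ω → ℂ) →ₗ[ℂ] (Ω → ℂ) :=
  repSum (permRep ℂ G Ω) fun g => conj ((χ : G → ℂ) g)

theorem isClassFunction_conj (χ : IrrCharacter G) : IsClassFunction G (fun g => conj ((χ : G → ℂ) g)) :=
  fun g h => congrArg conj (IsCharacter.isClassFunction (isCharacter_irr χ) g h)

theorem equi_E (χ : IrrCharacter G) : Equi (G := G) (E (Ω := Ω) χ) :=
  fun g => repSum_comm _ (isClassFunction_conj χ) g

theorem equi_comm (f : G → ℂ) {T : (Ω → ℂ) →ₗ[ℂ] (Ω → ℂ)} (hT : Equi (G := G) T) :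
    T ∘ₗ repSum (permRep ℂ G Ω) f = repSum (permRep ℂ G Ω) f ∘ₗ T := by
  refine LinearMap.ext fun v => ?_
  simp only [LinearMap.comp_apply, repSum_apply, map_sum, map_smul]
  refine Finset.sum_congr rfl fun g _ => ?_
  rw [show T (permRep ℂ G Ω g v) = permRep ℂ G Ω g (T v) from LinearMap.congr_fun (hT g) v]

/-- A constituent has an embedding, on which class sums act by scalars. -/
theorem exists_embed (χ : IrrCharacter G) (h : mult Ω χ ≠ 0) :
    ∃ (n : ℕ) (v : Fin n → ℂ) (i : (Fin n → ℂ) →ₗ[ℂ] (Ω → ℂ)), i v ≠ 0 ∧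
      ∀ f : G → ℂ, IsClassFunction G f →
        repSum (permRep ℂ G Ω) f (i v) = ((∑ g : G, f g * (χ : G → ℂ) g) / (χ : G → ℂ) 1) • i v := by
  obtain ⟨n, ρ, hρ, hc⟩ := χ.2
  have hd := finrank_hom (Ω := Ω) ρ χ hc
  obtain ⟨i, hi⟩ : ∃ i : (ρ.linHom (permRep ℂ G Ω)).invariants, i ≠ 0 := by
    by_contra hall
    push Not at hall
    haveI : Subsingleton (ρ.linHom (permRep ℂ G Ω)).invariants := ⟨fun a b => (hall a).trans (hall b).symm⟩
    exact h (hd ▸ Module.finrank_zero_of_subsingleton)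
  obtain ⟨v, hv⟩ : ∃ v, (i : (Fin n → ℂ) →ₗ[ℂ] (Ω → ℂ)) v ≠ 0 := by
    by_contra hall
    push Not at hall
    exact hi (Subtype.ext (LinearMap.ext hall))
  refine ⟨n, v, i, hv, fun f hf => ?_⟩
  have hint : ∀ g, permRep ℂ G Ω g ((i : (Fin n → ℂ) →ₗ[ℂ] (Ω → ℂ)) v) = (i : (Fin n → ℂ) →ₗ[ℂ] (Ω → ℂ)) (ρ g v) := by
    intro g
    have := (Representation.mem_invariants _ _).1 i.2 g
    rw [Representation.linHom_apply] at this
    conv_rhs => rw [← this]
    simp only [LinearMap.comp_apply]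
    rw [← Module.End.mul_apply (ρ g⁻¹), ← map_mul, inv_mul_cancel, map_one]
    rfl
  rw [repSum_apply, Finset.sum_congr rfl (fun g _ => (congrArg (f g • ·) (hint g)).trans
    (LinearMap.map_smul (i : (Fin n → ℂ) →ₗ[ℂ] (Ω → ℂ)) (f g) (ρ g v)).symm), ← map_sum, ← repSum_apply,
    repSum_eq_smul ρ hρ hf, hc, LinearMap.smul_apply, LinearMap.id_apply, map_smul]

theorem sum_conj_mul [DecidableEq (IrrCharacter G)] (χ ψ : IrrCharacter G) :
    ∑ g : G, conj ((χ : G → ℂ) g) * (ψ : G → ℂ) g = if ψ = χ then (Nat.card G : ℂ) else 0 := by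
  have h := classInner_irr ψ χ
  rw [classInner, inv_mul_eq_iff_eq_mul₀ (natCast_card_ne_zero G), mul_ite, mul_one, mul_zero] at h
  rw [← h]
  exact Finset.sum_congr rfl fun g _ => mul_comm _ _

theorem comm_of_mult_le_one (h : ∀ χ : IrrCharacter G, mult Ω χ ≤ 1) :
    (∀ T : (Ω → ℂ) →ₗ[ℂ] (Ω → ℂ), Equi (G := G) T →
      T ∈ Submodule.span ℂ (Set.range fun χ : {χ : IrrCharacter G // mult Ω χ ≠ 0} => E (Ω := Ω) χ.1)) ∧
    ∀ S T : (Ω → ℂ) →ₗ[ℂ] (Ω → ℂ), Equi (G := G) S → Equi (G := G) T → S ∘ₗ T = T ∘ₗ S := by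
  classical
  set Sp := Submodule.span ℂ (Set.range fun χ : {χ : IrrCharacter G // mult Ω χ ≠ 0} => E (Ω := Ω) χ.1) with hSp
  have hle : Sp ≤ ((permRep ℂ G Ω).linHom (permRep ℂ G Ω)).invariants := by
    rw [hSp, Submodule.span_le]
    rintro _ ⟨χ, rfl⟩
    exact (mem_invariants_iff _).2 (equi_E χ.1)
  have hli : LinearIndependent ℂ (fun χ : {χ : IrrCharacter G // mult Ω χ ≠ 0} => E (Ω := Ω) χ.1) := by
    rw [Fintype.linearIndependent_iff]
    intro c hc ψ
    obtain ⟨n, v, i, hv, hact⟩ := exists_embed ψ.1 ψ.2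
    have h0 := LinearMap.congr_fun hc (i v)
    simp only [LinearMap.sum_apply, LinearMap.smul_apply, LinearMap.zero_apply, E,
      hact _ (isClassFunction_conj _), sum_conj_mul] at h0
    rw [Finset.sum_eq_single ψ (fun b _ hb => by rw [if_neg (fun e => hb (Subtype.ext e.symm)), zero_div, zero_smul, smul_zero])
      (fun hh => absurd (Finset.mem_univ _) hh), if_pos rfl, smul_smul] at h0
    exact (mul_eq_zero.1 ((smul_eq_zero.1 h0).resolve_right hv)).resolve_right
      (div_ne_zero (natCast_card_ne_zero G) (irr_one_ne_zero ψ.1))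
  have hdim : finrank ℂ ((permRep ℂ G Ω).linHom (permRep ℂ G Ω)).invariants ≤ finrank ℂ Sp := by
    rw [finrank_equi, hSp, finrank_span_eq_card hli, Fintype.card_subtype, Finset.card_filter]
    refine Finset.sum_le_sum fun χ _ => ?_
    have := h χ
    interval_cases (mult Ω χ) <;> simp
  have heq := Submodule.eq_of_le_of_finrank_le hle hdim
  have hmem : ∀ T : (Ω → ℂ) →ₗ[ℂ] (Ω → ℂ), Equi (G := G) T → T ∈ Sp := fun T hT => heq ▸ (mem_invariants_iff T).2 hT
  refine ⟨hmem, fun S T hS hT => ?_⟩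
  refine Submodule.span_induction (p := fun T _ => S ∘ₗ T = T ∘ₗ S) ?_ ?_ ?_ ?_ (hmem T hT)
  · rintro _ ⟨χ, rfl⟩
    exact equi_comm _ hS
  · simp
  · intro x y _ _ hx hy
    rw [LinearMap.comp_add, LinearMap.add_comp, hx, hy]
  · intro c x _ hx
    rw [LinearMap.comp_smul, LinearMap.smul_comp, hx]

theorem mult_le_one_of_comm
    (h : ∀ S T : (Ω → ℂ) →ₗ[ℂ] (Ω → ℂ), Equi (G := G) S → Equi (G := G) T → S ∘ₗ T = T ∘ₗ S)
    (χ : IrrCharacter G) : mult Ω χ ≤ 1 := by
  classical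
  obtain ⟨n, ρ, hρ, hc⟩ := χ.2
  by_contra hle
  push Not at hle
  rw [← finrank_hom (Ω := Ω) ρ χ hc] at hle
  obtain ⟨a, ha⟩ : ∃ a : (ρ.linHom (permRep ℂ G Ω)).invariants, a ≠ 0 := by
    by_contra hall
    push Not at hall
    haveI : Subsingleton (ρ.linHom (permRep ℂ G Ω)).invariants := ⟨fun u v => (hall u).trans (hall v).symm⟩
    rw [Module.finrank_zero_of_subsingleton] at hle
    omega
  obtain ⟨b, hab⟩ := exists_linearIndependent_pair_of_one_lt_finrank (R := ℂ) (M := ↥(ρ.linHom (permRep ℂ G Ω)).invariants) hle (x := a) (fun e => ha e)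
  obtain ⟨hb0, hndep⟩ : b ≠ 0 ∧ ∀ c : ℂ, c • b ≠ a := by
    obtain ⟨h1, h2⟩ := linearIndependent_fin2.1 hab
    exact ⟨by simpa using h1, fun c hc => h2 c (by simpa using hc)⟩
  let τ := permRep ℂ G Ω
  let i1 : (Fin n → ℂ) →ₗ[ℂ] (Ω → ℂ) := a
  let i2 : (Fin n → ℂ) →ₗ[ℂ] (Ω → ℂ) := b
  have hint : ∀ (c : (ρ.linHom τ).invariants) g v, τ g ((c : (Fin n → ℂ) →ₗ[ℂ] (Ω → ℂ)) v) = (c : (Fin n → ℂ) →ₗ[ℂ] (Ω → ℂ)) (ρ g v) := by
    intro c g v
    have := (Representation.mem_invariants _ _).1 c.2 g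
    rw [Representation.linHom_apply] at this
    conv_rhs => rw [← this]
    simp only [LinearMap.comp_apply]
    rw [← Module.End.mul_apply (ρ g⁻¹), ← map_mul, inv_mul_cancel, map_one]
    rfl
  obtain ⟨hnon, hsimp⟩ := (isIrreducible_iff ρ).1 hρ
  have hinj : ∀ c : (ρ.linHom τ).invariants, c ≠ 0 → Function.Injective (c : (Fin n → ℂ) →ₗ[ℂ] (Ω → ℂ)) := by
    intro c hc0
    rw [← LinearMap.ker_eq_bot]
    refine (hsimp _ fun g v hv => ?_).resolve_right fun htop => hc0 (Subtype.ext (LinearMap.ext fun v => LinearMap.mem_ker.1 (htop ▸ Submodule.mem_top)))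
    rw [LinearMap.mem_ker] at hv ⊢
    rw [← hint, hv, map_zero]
  let j : ((Fin n → ℂ) × (Fin n → ℂ)) →ₗ[ℂ] (Ω → ℂ) := i1.coprod i2
  have hj : LinearMap.ker j = ⊥ := by
    rw [Submodule.eq_bot_iff]
    rintro ⟨v, w⟩ hvw
    have h0 : i1 v + i2 w = 0 := hvw
    let A : Submodule ℂ (Fin n → ℂ) := (LinearMap.range i2).comap i1
    rcases hsimp A (fun g x hx => by
        obtain ⟨y, hy⟩ := hx
        exact ⟨ρ g y, by show i2 (ρ g y) = i1 (ρ g x); rw [← hint b g y, ← hint a g x]; exact congrArg (τ g) hy⟩) with hA | hA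
    · have hv : v ∈ A := ⟨-w, by rw [map_neg]; exact (eq_neg_of_add_eq_zero_left h0).symm⟩
      rw [hA, Submodule.mem_bot] at hv
      subst hv
      rw [map_zero, zero_add] at h0
      rw [hinj b hb0 (h0.trans (map_zero i2).symm)]
      rfl
    · exfalso
      obtain ⟨l, hl⟩ := LinearMap.exists_leftInverse_of_injective i2 (LinearMap.ker_eq_bot.2 (hinj b hb0))
      have hl' : ∀ x, l (i2 x) = x := fun x => LinearMap.congr_fun hl x
      have hu : ∀ x, i2 (l (i1 x)) = i1 x := fun x => by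
        obtain ⟨y, hy⟩ : x ∈ A := hA ▸ Submodule.mem_top
        rw [← hy, hl']
      have hcomm : ∀ g, (l ∘ₗ i1) ∘ₗ ρ g = ρ g ∘ₗ (l ∘ₗ i1) := fun g => LinearMap.ext fun x => hinj b hb0 (by
        show i2 (l (i1 (ρ g x))) = i2 (ρ g (l (i1 x)))
        rw [hu, ← hint b g, ← hint a g]
        exact congrArg (τ g) (hu x).symm)
      haveI := hρ
      obtain ⟨c, hcc⟩ := (Representation.IsIrreducible.algebraMap_intertwiningMap_bijective_of_isAlgClosed (ρ := ρ)).2
        ⟨l ∘ₗ i1, hcomm⟩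
      have hF : l ∘ₗ i1 = c • LinearMap.id := by
        have := congrArg Representation.IntertwiningMap.toLinearMap hcc
        have h1 : (1 : Representation.IntertwiningMap ρ ρ).toLinearMap = LinearMap.id := rfl
        simpa [Algebra.algebraMap_eq_smul_one, h1] using this.symm
      refine hndep c (Subtype.ext (LinearMap.ext fun x => ?_))
      show c • i2 x = i1 x
      rw [← hu x, show l (i1 x) = c • x from LinearMap.congr_fun hF x, map_smul]
  obtain ⟨l, hl⟩ := LinearMap.exists_leftInverse_of_injective j hj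
  let ρ2 : G → ((Fin n → ℂ) × (Fin n → ℂ)) →ₗ[ℂ] ((Fin n → ℂ) × (Fin n → ℂ)) := fun g => (ρ g).prodMap (ρ g)
  let L : (Ω → ℂ) →ₗ[ℂ] ((Fin n → ℂ) × (Fin n → ℂ)) := (Nat.card G : ℂ)⁻¹ • ∑ g : G, ρ2 g ∘ₗ l ∘ₗ τ g⁻¹
  have hLj : ∀ v w, L (i1 v + i2 w) = (v, w) := by
    intro v w
    simp only [L, LinearMap.smul_apply, LinearMap.sum_apply, LinearMap.comp_apply]
    have e : ∀ g : G, ρ2 g (l (τ g⁻¹ (i1 v + i2 w))) = (v, w) := by
      intro g
      have : τ g⁻¹ (i1 v + i2 w) = j (ρ g⁻¹ v, ρ g⁻¹ w) := by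
        rw [map_add, hint a, hint b]; rfl
      rw [this, show l (j (ρ g⁻¹ v, ρ g⁻¹ w)) = (ρ g⁻¹ v, ρ g⁻¹ w) from LinearMap.congr_fun hl _]
      show (ρ g (ρ g⁻¹ v), ρ g (ρ g⁻¹ w)) = (v, w)
      rw [← Module.End.mul_apply, ← Module.End.mul_apply, ← map_mul, mul_inv_cancel, map_one]; rfl
    rw [Finset.sum_congr rfl fun g _ => e g, Finset.sum_const, Finset.card_univ, ← Nat.cast_smul_eq_nsmul ℂ, smul_smul,
      Fintype.card_eq_nat_card, inv_mul_cancel₀ (natCast_card_ne_zero G), one_smul]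
  have hLeq : ∀ (k : G) x, L (τ k x) = ρ2 k (L x) := by
    intro k x
    simp only [L, LinearMap.smul_apply, LinearMap.sum_apply, LinearMap.comp_apply, map_smul, map_sum]
    congr 1
    refine Fintype.sum_equiv (Equiv.mulLeft k⁻¹) _ _ fun g => ?_
    show ρ2 g (l (τ g⁻¹ (τ k x))) = ρ2 k (ρ2 (k⁻¹ * g) (l (τ (k⁻¹ * g)⁻¹ x)))
    rw [← Module.End.mul_apply (τ g⁻¹), ← map_mul, mul_inv_rev, inv_inv]
    show (ρ g _, ρ g _) = (ρ k (ρ (k⁻¹ * g) _), ρ k (ρ (k⁻¹ * g) _))
    rw [← Module.End.mul_apply (ρ k), ← Module.End.mul_apply (ρ k), ← map_mul, mul_inv_cancel_left]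
  let S : (Ω → ℂ) →ₗ[ℂ] (Ω → ℂ) := i1 ∘ₗ LinearMap.snd ℂ _ _ ∘ₗ L
  let T : (Ω → ℂ) →ₗ[ℂ] (Ω → ℂ) := i2 ∘ₗ LinearMap.fst ℂ _ _ ∘ₗ L
  have hS : Equi (G := G) S := fun g => LinearMap.ext fun x => by
    show i1 (L (τ g x)).2 = τ g (i1 (L x).2)
    rw [hLeq, hint a]; rfl
  have hT : Equi (G := G) T := fun g => LinearMap.ext fun x => by
    show i2 (L (τ g x)).1 = τ g (i2 (L x).1)
    rw [hLeq, hint b]; rfl
  obtain ⟨v, hv⟩ : ∃ v : Fin n → ℂ, v ≠ 0 := exists_ne 0
  have hst : S (T (i2 v)) = T (S (i2 v)) := LinearMap.congr_fun (h S T hS hT) (i2 v)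
  have e2 : L (i2 v) = (0, v) := by
    have := hLj 0 v
    rwa [map_zero, zero_add] at this
  have e1 : L (i1 v) = (v, 0) := by
    have := hLj v 0
    rwa [map_zero, add_zero] at this
  have l1 : S (T (i2 v)) = 0 := by
    show i1 (L (i2 (L (i2 v)).1)).2 = 0
    simp [e2]
  have l2 : T (S (i2 v)) = i2 v := by
    show i2 (L (i1 (L (i2 v)).2)).1 = i2 v
    simp [e2, e1]
  rw [l1, l2] at hst
  exact hv (hinj b hb0 (hst.symm.trans (map_zero i2).symm))

/-- Matrix entries of a symmetric family commute. -/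
theorem comp_comm_of_symm [DecidableEq Ω] {S T : (Ω → ℂ) →ₗ[ℂ] (Ω → ℂ)}
    (hS : ∀ x y, S (Pi.single y 1) x = S (Pi.single x 1) y) (hT : ∀ x y, T (Pi.single y 1) x = T (Pi.single x 1) y)
    (hTS : ∀ x y, (T ∘ₗ S) (Pi.single y 1) x = (T ∘ₗ S) (Pi.single x 1) y) : S ∘ₗ T = T ∘ₗ S := by
  have ent : ∀ (A : (Ω → ℂ) →ₗ[ℂ] (Ω → ℂ)) (f : Ω → ℂ) x, A f x = ∑ y, f y * A (Pi.single y 1) x := by
    intro A f x
    conv_lhs => rw [show f = ∑ y, f y • (Pi.single y (1 : ℂ) : Ω → ℂ) from funext fun z => by simp [Pi.single_apply]]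
    rw [map_sum, Finset.sum_apply]
    simp only [map_smul, Pi.smul_apply, smul_eq_mul]
  refine (Pi.basisFun ℂ Ω).ext fun z => funext fun x => ?_
  rw [Pi.basisFun_apply, hTS x z]
  simp only [LinearMap.comp_apply]
  rw [ent S (T _) x, ent T (S _) z]
  refine Finset.sum_congr rfl fun y _ => ?_
  rw [hT y z, hS x y, mul_comm]

/-- The rank is the sum of the squared multiplicities. -/
theorem rank_eq : Nat.card (MulAction.orbitRel.Quotient G (Ω × Ω)) = ∑ χ : IrrCharacter G, mult Ω χ ^ 2 := by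
  classical
  have h := MulAction.sum_card_fixedBy_eq_card_orbits_mul_card_group G (Ω × Ω)
  have e : ∀ g : G, (Fintype.card (MulAction.fixedBy (Ω × Ω) g) : ℂ) = π G Ω g * conj (π G Ω g) := by
    intro g
    rw [conj_π, π, ← Nat.cast_mul, ← Nat.card_prod, ← Nat.card_eq_fintype_card]
    refine congrArg Nat.cast (Nat.card_congr
      { toFun := fun p => (⟨p.1.1, congrArg Prod.fst p.2⟩, ⟨p.1.2, congrArg Prod.snd p.2⟩)
        invFun := fun p => ⟨(p.1.1, p.2.1), Prod.ext p.1.2 p.2.2⟩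
        left_inv := fun _ => rfl
        right_inv := fun _ => rfl })
  have h2 : ∑ g : G, π G Ω g * conj (π G Ω g) =
      (Fintype.card (MulAction.orbitRel.Quotient G (Ω × Ω)) : ℂ) * (Fintype.card G : ℂ) := by
    rw [← Finset.sum_congr rfl fun g _ => e g]
    exact_mod_cast h
  have h3 := classInner_self (G := G) (Ω := Ω)
  rw [classInner, h2, Fintype.card_eq_nat_card, Fintype.card_eq_nat_card, mul_comm (Nat.card (MulAction.orbitRel.Quotient G (Ω × Ω)) : ℂ),
    inv_mul_cancel_left₀ (natCast_card_ne_zero G)] at h3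
  exact_mod_cast h3

/-- The degree is the sum of the constituents' degrees. -/
theorem card_eq : Fintype.card Ω = ∑ χ : IrrCharacter G, mult Ω χ * charDegree (χ : G → ℂ) := by
  have h := π_expand (Ω := Ω) (1 : G)
  simp only [irr_apply_one, π, MulAction.fixedBy_one_eq_univ] at h
  rw [Nat.card_univ, Nat.card_eq_fintype_card] at h
  exact_mod_cast h

end CfsgLib.Perm.Centraliser
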