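import Cfsg.Agent.Lib.Perm.SymAut

/-! Subgroups of index six in the symmetric group of degree six. -/
set_option autoImplicit false
open Equiv Equiv.Perm

namespace CfsgLib.Perm.SymSix

open SymAut

theorem exists_transitive_five :
    ∃ H : Subgroup (Perm (Fin 6)), H.index = 6 ∧ ∀ x y : Fin 6, ∃ g ∈ H, g x = y := by
  haveI : Fact (Nat.Prime 5) := ⟨by norm_num⟩
  have hc : Nat.card (Perm (Fin 5)) = 120 := by rw [Nat.card_perm]; simp [Nat.factorial]
  obtain ⟨P⟩ := (inferInstance : Nonempty (Sylow 5 (Perm (Fin 5))))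
  have hP : Nat.card P = 5 := by
    rw [P.card_eq_multiplicity, hc, show (120 : ℕ) = 24 * 5 by rfl,
      Nat.factorization_mul (by norm_num) (by norm_num)]
    simp [Nat.factorization_eq_zero_of_not_dvd, Nat.Prime.factorization_self (by norm_num : Nat.Prime 5)]
  have hdvd : Nat.card (Sylow 5 (Perm (Fin 5))) ∣ 24 := by
    have h1 := P.card_dvd_index
    have h2 := Subgroup.index_mul_card (P : Subgroup (Perm (Fin 5)))
    rw [hP, hc] at h2
    rwa [show (P : Subgroup (Perm (Fin 5))).index = 24 by omega] at h1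
  have hne : Nat.card (Sylow 5 (Perm (Fin 5))) ≠ 1 := fun h => by
    have : Subsingleton (Sylow 5 (Perm (Fin 5))) := (Nat.card_eq_one_iff_unique.1 h).1
    have hn : (P : Subgroup (Perm (Fin 5))).Normal := P.normal_of_subsingleton
    have h2 := Subgroup.index_mul_card (P : Subgroup (Perm (Fin 5)))
    rw [hP, hc] at h2
    have := eq_bot_of_normal_le (H := (P : Subgroup (Perm (Fin 5)))) (N := (P : Subgroup (Perm (Fin 5)))) (by simp)
      le_rfl (by omega)
    rw [this, Subgroup.card_bot] at hP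
    omega
  have hsix : Nat.card (Sylow 5 (Perm (Fin 5))) = 6 := by
    have hmod := card_sylow_modEq_one 5 (Perm (Fin 5))
    have := Nat.le_of_dvd (by norm_num) hdvd
    unfold Nat.ModEq at hmod
    interval_cases Nat.card (Sylow 5 (Perm (Fin 5))) <;> omega
  have e := Finite.equivFinOfCardEq hsix
  let f : Perm (Fin 5) →* Perm (Fin 6) :=
    e.permCongrHom.toMonoidHom.comp (MulAction.toPermHom (Perm (Fin 5)) (Sylow 5 (Perm (Fin 5))))
  have hinj : Function.Injective f := by
    refine (e.permCongrHom.injective).comp ?_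
    rw [← MonoidHom.ker_eq_bot_iff]
    refine eq_bot_of_normal_le (H := MulAction.stabilizer (Perm (Fin 5)) P) (by simp)
      (fun g hg => DFunLike.congr_fun (MonoidHom.mem_ker.1 hg) P) ?_
    rw [MulAction.index_stabilizer_of_transitive, hsix]; norm_num
  refine ⟨f.range, ?_, fun x y => ?_⟩
  · have h := Subgroup.index_mul_card f.range
    have hr : Nat.card f.range = 120 := by rw [← hc]; exact (Nat.card_congr (MonoidHom.ofInjective hinj).toEquiv).symm
    rw [hr, Nat.card_perm, Nat.card_eq_fintype_card, Fintype.card_fin] at h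
    simp only [Nat.factorial] at h
    omega
  · obtain ⟨g, hg⟩ := MulAction.exists_smul_eq (Perm (Fin 5)) (e.symm x) (e.symm y)
    refine ⟨f g, ⟨g, rfl⟩, ?_⟩
    show e (g • e.symm x) = y
    rw [hg, e.apply_symm_apply]

variable {α : Type*} [DecidableEq α] [Fintype α]

theorem exists_no_fix (h6 : Fintype.card α = 6) :
    ∃ H : Subgroup (Perm α), H.index = 6 ∧ ∀ x : α, H ≠ MulAction.stabilizer (Perm α) x := by
  obtain ⟨H, hi, ht⟩ := exists_transitive_five
  let e : Perm (Fin 6) ≃* Perm α := (Fintype.equivFinOfCardEq h6).symm.permCongrHom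
  refine ⟨H.map e.toMonoidHom, (Subgroup.index_map_of_bijective e.bijective H).trans hi, fun x hx => ?_⟩
  set q := Fintype.equivFinOfCardEq h6
  obtain ⟨j, hj⟩ := exists_ne (q x)
  obtain ⟨g, hg, hgx⟩ := ht (q x) j
  have h := (SetLike.ext_iff.1 hx (e g)).1 (Subgroup.mem_map_of_mem _ hg)
  rw [MulAction.mem_stabilizer_iff, Perm.smul_def] at h
  apply hj
  rw [← hgx]
  exact q.symm_apply_eq.1 h

theorem isConj_triple (h6 : Fintype.card α = 6) {u v : Perm α} (hu : u * u = 1) (hv : v * v = 1)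
    (hu' : ∀ x, u x ≠ x) (hv' : ∀ x, v x ≠ x) : IsConj u v := by
  rw [isConj_iff_cycleType_eq]
  have key : ∀ w : Perm α, w * w = 1 → (∀ x, w x ≠ x) → w.cycleType = Multiset.replicate 3 2 := by
    intro w hw hw'
    have hne : w ≠ 1 := fun h => by
      obtain ⟨x⟩ : Nonempty α := Fintype.card_pos_iff.1 (by omega)
      exact hw' x (by rw [h]; rfl)
    have ho : orderOf w = 2 := orderOf_eq_prime (by rw [pow_two, hw]) hne
    obtain ⟨n, hn⟩ := cycleType_prime_order (σ := w) (by rw [ho]; exact Nat.prime_two)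
    rw [ho] at hn
    have hs := sum_cycleType w
    rw [hn, Multiset.sum_replicate, smul_eq_mul, show w.support = Finset.univ from Finset.ext fun x => by simp [hw' x],
      Finset.card_univ, h6] at hs
    rw [hn, show n + 1 = 3 by omega]
  rw [key u hu hu', key v hv hv']

theorem conj_isSwap {k g : Perm α} (h : g.IsSwap) : (k * g * k⁻¹).IsSwap := by
  obtain ⟨a, b, hab, rfl⟩ := h
  exact ⟨k a, k b, k.injective.ne hab, by rw [mul_swap_eq_swap_mul, mul_inv_cancel_right]⟩

/-- an exotic automorphism of `S₆`; every subgroup of index 6 is a stabiliser or an exotic preimage of one -/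
theorem classify (h6 : Fintype.card α = 6) : ∃ φ : Perm α ≃* Perm α,
    (∀ x y : α, (MulAction.stabilizer (Perm α) x).comap φ.toMonoidHom ≠ MulAction.stabilizer (Perm α) y) ∧
    ∀ H : Subgroup (Perm α), H.index = 6 →
      ∃ x : α, H = MulAction.stabilizer (Perm α) x ∨ H = (MulAction.stabilizer (Perm α) x).comap φ.toMonoidHom := by
  obtain ⟨H₀, hi₀, hns⟩ := exists_no_fix h6
  obtain ⟨f₀, x₀, hinj₀, hf₀⟩ := exists_point_hom (by omega) (hi₀.trans h6.symm)
  let φ : Perm α ≃* Perm α := MulEquiv.ofBijective f₀ (Finite.injective_iff_bijective.1 hinj₀)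
  have hφ : ∀ g, φ g = f₀ g := fun g => rfl
  -- a non-inner automorphism sends every transposition to a triple one
  have hbad : ∀ f : Perm α →* Perm α, Function.Injective f → (¬ ∃ σ : Perm α, ∀ g, f g = σ * g * σ⁻¹) →
      ∀ t : Perm α, t.IsSwap → ∀ x, f t x ≠ x := by
    intro f hf hni t ht
    refine ((map_swap_cases f hf (by omega) ht).resolve_left fun hsw => hni (inner_of_swaps f hf fun g hg => ?_)).1
    obtain ⟨a, b, hab, rfl⟩ := ht
    obtain ⟨c, d, hcd, rfl⟩ := hg
    obtain ⟨k, hk⟩ := isConj_iff.1 (isConj_swap hab hcd)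
    rw [← hk, map_mul, map_mul, map_inv]
    exact conj_isSwap hsw
  have hout : ¬ ∃ σ : Perm α, ∀ g, f₀ g = σ * g * σ⁻¹ := by
    rintro ⟨σ, hσ⟩
    refine hns (σ⁻¹ x₀) (Subgroup.ext fun g => ?_)
    rw [hf₀, MulAction.mem_stabilizer_iff, Perm.smul_def, hσ, Perm.mul_apply, Perm.mul_apply, ← Perm.eq_inv_iff_eq]
  refine ⟨φ, fun x y hxy => ?_, fun H hH => ?_⟩
  · obtain ⟨k, hk⟩ := φ.surjective (swap x x₀)
    refine hns (k y) (Subgroup.ext fun g => ?_)
    have h := SetLike.ext_iff.1 hxy (k⁻¹ * g * k)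
    rw [Subgroup.mem_comap, MulAction.mem_stabilizer_iff, MulAction.mem_stabilizer_iff, Perm.smul_def, Perm.smul_def,
      MulEquiv.coe_toMonoidHom, map_mul, map_mul, map_inv, hk, hφ, swap_inv, Perm.mul_apply, Perm.mul_apply,
      swap_apply_left, ← swap_inv x x₀, Perm.inv_eq_iff_eq, swap_apply_left, Perm.mul_apply, Perm.mul_apply,
      Perm.inv_eq_iff_eq] at h
    rw [hf₀, MulAction.mem_stabilizer_iff, Perm.smul_def]
    exact h
  · obtain ⟨f, x, hinj, hf⟩ := exists_point_hom (by omega) (hH.trans h6.symm)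
    by_cases hinner : ∃ σ : Perm α, ∀ g, f g = σ * g * σ⁻¹
    · obtain ⟨σ, hσ⟩ := hinner
      refine ⟨σ⁻¹ x, Or.inl (Subgroup.ext fun g => ?_)⟩
      rw [hf, MulAction.mem_stabilizer_iff, Perm.smul_def, hσ, Perm.mul_apply, Perm.mul_apply, ← Perm.eq_inv_iff_eq]
    let h : Perm α →* Perm α := f.comp φ.symm.toMonoidHom
    have hh : Function.Injective h := hinj.comp φ.symm.injective
    obtain ⟨a, b, hab⟩ := Fintype.exists_pair_of_one_lt_card (α := α) (by omega)
    have htS : (swap a b).IsSwap := ⟨a, b, hab, rfl⟩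
    have psi : ∀ f' : Perm α ≃* Perm α, (¬ ∃ σ : Perm α, ∀ g, f' g = σ * g * σ⁻¹) →
        ∀ x, f'.symm (swap a b) x ≠ x := fun f' hf' => by
      refine hbad f'.symm.toMonoidHom f'.symm.injective (fun ⟨σ, hσ⟩ => hf' ⟨σ⁻¹, fun g => ?_⟩) _ htS
      have := hσ (f' g)
      rw [MulEquiv.coe_toMonoidHom, f'.symm_apply_apply] at this
      conv_rhs => rw [this]
      group
    let ψ : Perm α ≃* Perm α := MulEquiv.ofBijective f (Finite.injective_iff_bijective.1 hinj)
    have sq : ∀ f' : Perm α ≃* Perm α, f' (swap a b) * f' (swap a b) = 1 := fun f' => by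
      rw [← map_mul, swap_mul_self, map_one]
    obtain ⟨k, hk⟩ := isConj_iff.1 (isConj_triple h6 (sq ψ.symm) (sq φ.symm) (psi ψ hinner) (psi φ hout))
    have hsw : (h (swap a b)).IsSwap := by
      show (f (φ.symm (swap a b))).IsSwap
      rw [← hk, map_mul, map_mul, map_inv, show f (ψ.symm (swap a b)) = swap a b from ψ.apply_symm_apply _]
      exact conj_isSwap htS
    obtain ⟨σ, hσ⟩ := inner_of_swaps h hh fun g hg => by
      obtain ⟨c, d, hcd, rfl⟩ := hg
      obtain ⟨m, hm⟩ := isConj_iff.1 (isConj_swap hab hcd)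
      rw [← hm, map_mul, map_mul, map_inv]
      exact conj_isSwap hsw
    refine ⟨σ⁻¹ x, Or.inr (Subgroup.ext fun g => ?_)⟩
    have := hσ (φ g)
    rw [show h (φ g) = f g from congrArg f (φ.symm_apply_apply g)] at this
    rw [hf, Subgroup.mem_comap, MulAction.mem_stabilizer_iff, Perm.smul_def, this, Perm.mul_apply, Perm.mul_apply,
      ← Perm.eq_inv_iff_eq]
    rfl

end CfsgLib.Perm.SymSix
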