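import Mathlib
import Cfsg.Prelude.Def_Solvable
import Cfsg.Prelude.Def_LieExceptional
import Cfsg.Agent.Lib.GroupB.Frobenius
import Cfsg.Agent.Lib.GroupB.FrobBasic

/-! Basic theory of Zassenhaus groups. (helper4) -/

set_option autoImplicit false

namespace CfsgLib.Zassenhaus

open MulAction Cfsg
open scoped Pointwise

variable {G Ω : Type*} [Group G] [MulAction G Ω]

/-- no non-identity element fixes three points. -/
def FixLe (G Ω : Type*) [Group G] [MulAction G Ω] : Prop :=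
  ∀ g : G, ∀ a b c : Ω, a ≠ b → b ≠ c → a ≠ c → g • a = a → g • b = b → g • c = c → g = 1

theorem exists_fix_pair (h2 : IsMultiplyPretransitive G Ω 2)
    (hfix : ∃ g : G, g ≠ 1 ∧ ∃ a b : Ω, a ≠ b ∧ g • a = a ∧ g • b = b) {a b : Ω} (hab : a ≠ b) :
    ∃ g : G, g ≠ 1 ∧ g • a = a ∧ g • b = b := by
  obtain ⟨g, hg, a', b', hab', ga, gb⟩ := hfix
  obtain ⟨k, rfl, rfl⟩ := is_two_pretransitive_iff.mp h2 hab' hab
  refine ⟨k * g * k⁻¹, fun e => hg (conj_eq_one_iff.mp e), ?_, ?_⟩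
  · rw [mul_smul, mul_smul, inv_smul_smul, ga]
  · rw [mul_smul, mul_smul, inv_smul_smul, gb]

theorem exists_third [FaithfulSMul G Ω] (hfix : ∃ g : G, g ≠ 1 ∧ ∃ a b : Ω, a ≠ b ∧ g • a = a ∧ g • b = b)
    (x y : Ω) : ∃ z : Ω, z ≠ x ∧ z ≠ y := by
  by_contra hc
  push Not at hc
  obtain ⟨g, hg, a, b, hab, ga, gb⟩ := hfix
  refine hg (FaithfulSMul.eq_of_smul_eq_smul (α := Ω) fun z => ?_)
  rw [one_smul]
  by_cases hza : z = a
  · rw [hza, ga]
  by_cases hzb : z = b
  · rw [hzb, gb]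
  by_cases hax : a = x
  · have hby : b = y := hc b (fun e => hab (hax.trans e.symm))
    exact absurd (hc z (fun e => hza (e.trans hax.symm))) (fun e => hzb (e.trans hby.symm))
  · have hay : a = y := hc a hax
    by_cases hbx : b = x
    · exact absurd (hc z (fun e => hzb (e.trans hbx.symm))) (fun e => hza (e.trans hay.symm))
    · exact absurd (hay.trans (hc b hbx).symm) hab

section Frob

variable [Finite Ω] [FaithfulSMul G Ω]
variable (h2 : IsMultiplyPretransitive G Ω 2) (h3 : FixLe G Ω)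
variable (hfix : ∃ g : G, g ≠ 1 ∧ ∃ a b : Ω, a ≠ b ∧ g • a = a ∧ g • b = b)
include h2 h3 hfix

/-- the point stabiliser is a Frobenius group; its kernel acts regularly on the other points. -/
theorem exists_kernel (a : Ω) : ∃ K : Subgroup G,
    (∀ x, x ∈ K ↔ x • a = a ∧ (x = 1 ∨ ∀ b, b ≠ a → x • b ≠ b)) ∧
    (∀ g, g • a = a → ∀ x ∈ K, g * x * g⁻¹ ∈ K) ∧
    (∀ b c, b ≠ a → c ≠ a → ∃ x ∈ K, x • b = c) ∧
    Group.IsNilpotent K ∧ Nat.card K + 1 = Nat.card Ω := by
  classical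
  haveI : Fintype Ω := Fintype.ofFinite Ω
  haveI : Finite G := Finite.of_injective (fun g : G => (g • · : Ω → Ω))
    (fun g k e => FaithfulSMul.eq_of_smul_eq_smul (α := Ω) (congrFun e))
  haveI : IsPretransitive G Ω := ⟨fun x y => by
    obtain ⟨z, hz, -⟩ := exists_third hfix x x
    obtain ⟨z', hz', -⟩ := exists_third hfix y y
    obtain ⟨k, kx, -⟩ := is_two_pretransitive_iff.mp h2 hz.symm hz'.symm
    exact ⟨k, kx⟩⟩
  obtain ⟨b₀, hb₀, -⟩ := exists_third hfix a a
  set S := stabilizer G a with hS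
  set H := (stabilizer G b₀).subgroupOf S with hH
  have hFC : IsFrobeniusComplement H := by
    refine ⟨fun e => ?_, fun e => ?_, fun g hg => ?_⟩
    · obtain ⟨k, hk, ka, kb⟩ := exists_fix_pair h2 hfix hb₀.symm
      have : (⟨k, ka⟩ : S) ∈ H := kb
      rw [e, Subgroup.mem_bot] at this
      exact hk (congrArg Subtype.val this)
    · obtain ⟨c, hca, hcb⟩ := exists_third hfix a b₀
      obtain ⟨k, ka, kb⟩ := is_two_pretransitive_iff.mp h2 hb₀.symm hca.symm
      have : (⟨k, ka⟩ : S) ∈ H := e ▸ Subgroup.mem_top _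
      exact hcb (kb.symm.trans this)
    · rw [eq_bot_iff]
      intro x hx
      obtain ⟨hx1, hx2⟩ := Subgroup.mem_inf.mp hx
      rw [CfsgLib.GroupB.Frobenius.mem_conj_smul_iff] at hx2
      rw [Subgroup.mem_bot]
      apply Subtype.ext
      refine h3 (x : G) a b₀ ((g : G) • b₀) hb₀.symm (fun e => hg e.symm) (fun e => hb₀ ?_) x.2 hx1 ?_
      · exact (MulAction.injective (g : G) ((mem_stabilizer_iff.mp g.2).trans e)).symm
      · have e : ((g : G)⁻¹ * (x : G) * (g : G)) • b₀ = b₀ := hx2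
        rwa [mul_smul, mul_smul, inv_smul_eq_iff] at e
  obtain ⟨K₀, hKset, hKn, hKc⟩ := CfsgLib.GroupB.Frobenius.exists_kernel_subgroup hFC
  have hmem : ∀ x : S, x ∈ K₀ ↔ x = 1 ∨ ∀ b, b ≠ a → (x : G) • b ≠ b := by
    intro x
    rw [← SetLike.mem_coe, hKset, CfsgLib.GroupB.Frobenius.mem_kernel_iff]
    refine or_congr_right ⟨fun hx b hb e => ?_, fun hx g hg => ?_⟩
    · obtain ⟨k, ka, kb⟩ := is_two_pretransitive_iff.mp h2 hb₀.symm hb.symm
      refine hx ⟨k, ka⟩ ?_
      show (k⁻¹ * (x : G) * k) • b₀ = b₀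
      rw [mul_smul, mul_smul, kb, e, inv_smul_eq_iff, kb]
    · refine hx ((g : G) • b₀) (fun e => hb₀ ?_) ?_
      · exact MulAction.injective (g : G) (e.trans (mem_stabilizer_iff.mp g.2).symm)
      · have e : ((g : G)⁻¹ * (x : G) * (g : G)) • b₀ = b₀ := hg
        rwa [mul_smul, mul_smul, inv_smul_eq_iff] at e
  haveI := hKn
  have hnil := CfsgLib.GroupB.FrobBasic.isNilpotent_kernel hFC K₀ hKc
  set K := K₀.map S.subtype with hK
  have hmemK : ∀ x, x ∈ K ↔ x • a = a ∧ (x = 1 ∨ ∀ b, b ≠ a → x • b ≠ b) := by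
    intro x
    rw [hK, Subgroup.mem_map]
    constructor
    · rintro ⟨y, hy, rfl⟩
      exact ⟨y.2, ((hmem y).mp hy).imp (fun e => by rw [e]; rfl) id⟩
    · rintro ⟨xa, hx⟩
      exact ⟨⟨x, xa⟩, (hmem _).mpr (hx.imp (fun e => Subtype.ext e) id), rfl⟩
  have hcardK : Nat.card K + 1 = Nat.card Ω := by
    have e1 : Nat.card K = H.index := by
      rw [hK, Nat.card_congr (Subgroup.equivMapOfInjective _ _ S.subtype_injective).toEquiv.symm,
        ← hKc.index_eq_card]
    have e2 : H.index = (stabilizer S b₀).index := rfl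
    have e3 : orbit S b₀ = {c | c ≠ a} := by
      ext c
      constructor
      · rintro ⟨g, rfl⟩ e
        exact hb₀ (MulAction.injective (g : G) ((show (g : G) • b₀ = a from e).trans (mem_stabilizer_iff.mp g.2).symm))
      · intro hc
        obtain ⟨k, ka, kb⟩ := is_two_pretransitive_iff.mp h2 hb₀.symm (Ne.symm hc)
        exact ⟨⟨k, ka⟩, kb⟩
    rw [e1, e2, index_stabilizer, e3, show {c : Ω | c ≠ a} = ({a} : Set Ω)ᶜ from rfl, Set.ncard_compl,
      Set.ncard_singleton]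
    have : 0 < Nat.card Ω := Nat.card_pos_iff.mpr ⟨⟨a⟩, inferInstance⟩
    omega
  refine ⟨K, hmemK, ?_, ?_, ?_, hcardK⟩
  · intro g ga x hx
    obtain ⟨y, hy, rfl⟩ := hx
    exact ⟨⟨g, ga⟩ * y * ⟨g, ga⟩⁻¹, hKn.conj_mem y hy _, rfl⟩
  · intro b c hb hc
    have hinj : Function.Injective (fun x : K => (⟨(x : G) • b, fun e => hb (MulAction.injective (x : G)
        (e.trans ((hmemK _).mp x.2).1.symm))⟩ : {c : Ω // c ≠ a})) := by
      intro x y e
      have e' : (x : G) • b = (y : G) • b := congrArg Subtype.val e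
      have hxy : (y : G)⁻¹ * (x : G) ∈ K := K.mul_mem (K.inv_mem y.2) x.2
      rcases ((hmemK _).mp hxy).2 with h1 | h1
      · exact Subtype.ext (inv_mul_eq_one.mp h1).symm
      · exact absurd (by rw [mul_smul, e', inv_smul_smul]) (h1 b hb)
    have hcard : Nat.card K = Nat.card {c : Ω // c ≠ a} := by
      rw [Nat.card_eq_fintype_card (α := {c : Ω // c ≠ a}), Fintype.card_subtype_compl, Fintype.card_subtype_eq,
        ← Nat.card_eq_fintype_card]
      omega
    obtain ⟨x, hx⟩ := ((Nat.bijective_iff_injective_and_card _).mpr ⟨hinj, hcard⟩).2 ⟨c, hc⟩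
    exact ⟨x, x.2, congrArg Subtype.val hx⟩
  · exact Group.nilpotent_of_mulEquiv (Subgroup.equivMapOfInjective _ _ S.subtype_injective)

end Frob

/-- a normal subgroup with trivial stabilisers is regular; Zassenhaus groups have none. -/
theorem no_regular (hZ : IsZassenhausGroup G Ω) (N : Subgroup G) (hN : N.Normal) (ht : IsPretransitive N Ω) :
    ¬ ∀ a : Ω, stabilizer N a = ⊥ := fun h => by
  obtain ⟨a, ha⟩ := hZ.2.2.2.2 N hN ht
  exact ha (h a)

theorem two_trans_of_normal [Finite Ω] (hZ : IsZassenhausGroup G Ω) (N : Subgroup G) [N.Normal] (hN : N ≠ ⊥) :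
    IsMultiplyPretransitive N Ω 2 ∧ ∃ g : N, g ≠ 1 ∧ ∃ a b : Ω, a ≠ b ∧ g • a = a ∧ g • b = b := by
  classical
  obtain ⟨hf, h2, h3, hfix, hreg⟩ := hZ
  haveI := hf
  haveI : Finite G := Finite.of_injective (fun g : G => (g • · : Ω → Ω))
    (fun g k e => FaithfulSMul.eq_of_smul_eq_smul (α := Ω) (congrFun e))
  haveI hNt : IsPretransitive N Ω := ⟨fun x y => by
    rcases N.bot_or_exists_ne_one with e | ⟨n, hn, hn1⟩
    · exact absurd e hN
    by_cases hxy : x = y
    · exact ⟨1, by rw [hxy, one_smul]⟩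
    obtain ⟨p, hp⟩ : ∃ p : Ω, n • p ≠ p := by
      by_contra hc; push Not at hc
      exact hn1 (FaithfulSMul.eq_of_smul_eq_smul (α := Ω) fun z => by rw [hc z, one_smul])
    obtain ⟨k, kp, kn⟩ := is_two_pretransitive_iff.mp h2 hp.symm hxy
    exact ⟨⟨k * n * k⁻¹, Subgroup.Normal.conj_mem inferInstance n hn k⟩, by
      show (k * n * k⁻¹) • x = y
      rw [mul_smul, mul_smul, ← kp, inv_smul_smul, kn]⟩⟩
  -- an element of N fixing two points
  have hpair : ∃ g : N, g ≠ 1 ∧ ∃ a b : Ω, a ≠ b ∧ g • a = a ∧ g • b = b := by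
    by_contra hc
    push Not at hc
    obtain ⟨a₀, ha₀⟩ := hreg N inferInstance hNt
    set H := stabilizer N a₀ with hH
    have hFC : IsFrobeniusComplement H := by
      refine ⟨ha₀, fun e => ?_, fun g hg => ?_⟩
      · obtain ⟨b, hb, -⟩ := exists_third hfix a₀ a₀
        obtain ⟨k, hk⟩ := hNt.exists_smul_eq a₀ b
        have : k ∈ H := e ▸ Subgroup.mem_top _
        exact hb (hk.symm.trans (mem_stabilizer_iff.mp this))
      · rw [eq_bot_iff]
        intro x hx
        obtain ⟨hx1, hx2⟩ := Subgroup.mem_inf.mp hx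
        rw [CfsgLib.GroupB.Frobenius.mem_conj_smul_iff, hH, mem_stabilizer_iff, mul_smul, mul_smul,
          inv_smul_eq_iff] at hx2
        rw [Subgroup.mem_bot]
        by_contra hx
        exact hc x hx a₀ (g • a₀) (fun e => hg (mem_stabilizer_iff.mpr e.symm)) hx1 hx2
    obtain ⟨M, hMset, hMn, hMc⟩ := CfsgLib.GroupB.Frobenius.exists_kernel_subgroup hFC
    have hmem : ∀ x : N, x ∈ M ↔ x = 1 ∨ ∀ b : Ω, x • b ≠ b := by
      intro x
      rw [← SetLike.mem_coe, hMset, CfsgLib.GroupB.Frobenius.mem_kernel_iff]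
      refine or_congr_right ⟨fun hx b e => ?_, fun hx g hg => ?_⟩
      · obtain ⟨g, rfl⟩ := hNt.exists_smul_eq a₀ b
        exact hx g (mem_stabilizer_iff.mpr (by rw [mul_smul, mul_smul, e, inv_smul_smul]))
      · rw [hH, mem_stabilizer_iff, mul_smul, mul_smul, inv_smul_eq_iff] at hg
        exact hx _ hg
    set M' := M.map N.subtype with hM'
    have hM'n : M'.Normal := ⟨fun x hx g => by
      obtain ⟨y, hy, rfl⟩ := hx
      refine ⟨⟨g * (y : G) * g⁻¹, Subgroup.Normal.conj_mem inferInstance _ y.2 g⟩, (hmem _).mpr ?_, rfl⟩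
      refine ((hmem y).mp hy).imp (fun e => Subtype.ext (by rw [e]; simp)) fun hy' b e => hy' (g⁻¹ • b) ?_
      have e' : (g * (y : G) * g⁻¹) • b = b := e
      rw [mul_smul, mul_smul, ← eq_inv_smul_iff] at e'
      exact e'⟩
    have hsemi : ∀ b : Ω, ∀ x ∈ M', x • b = b → x = 1 := by
      rintro b _ ⟨y, hy, rfl⟩ e
      rcases (hmem y).mp hy with h1 | h1
      · rw [h1]; rfl
      · exact absurd e (h1 b)
    have hMt : IsPretransitive M' Ω := by
      have hinj : Function.Injective (fun x : M' => (x : G) • a₀) := fun x y e => by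
        have e' : (x : G) • a₀ = (y : G) • a₀ := e
        have := hsemi a₀ ((y : G)⁻¹ * x) (mul_mem (inv_mem y.2) x.2) (by rw [mul_smul, e', inv_smul_smul])
        exact Subtype.ext (inv_mul_eq_one.mp this).symm
      have hcard : Nat.card M' = Nat.card Ω := by
        rw [hM', Nat.card_congr (Subgroup.equivMapOfInjective _ _ N.subtype_injective).toEquiv.symm,
          ← hMc.index_eq_card, hH, index_stabilizer_of_transitive]
      have hb := (Nat.bijective_iff_injective_and_card _).mpr ⟨hinj, hcard⟩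
      refine ⟨fun x y => ?_⟩
      obtain ⟨u, rfl⟩ := hb.2 x
      obtain ⟨v, rfl⟩ := hb.2 y
      exact ⟨v * u⁻¹, by
        show ((v : G) * (u : G)⁻¹) • ((u : G) • a₀) = (v : G) • a₀
        rw [mul_smul, inv_smul_smul]⟩
    obtain ⟨b, hb⟩ := hreg M' hM'n hMt
    refine hb ((Subgroup.eq_bot_iff_forall _).mpr fun x hx => Subtype.ext (hsemi b x x.2 ?_))
    exact hx
  refine ⟨?_, hpair⟩
  obtain ⟨⟨h, hhN⟩, hh1, a, b, hab, ha, hb⟩ := hpair
  obtain ⟨K, hmemK, hKn, hKt, -, -⟩ := exists_kernel h2 h3 hfix a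
  have hh1' : h ≠ 1 := fun e => hh1 (Subtype.ext e)
  have hKN : K ≤ N := by
    have hcK : ∀ x ∈ K, h * x = x * h → x = 1 := by
      intro x hx e
      rcases ((hmemK x).mp hx).2 with h1 | h1
      · exact h1
      · exfalso
        have hxb : x • b ≠ b := h1 b hab.symm
        have hxa : x • b ≠ a := fun e' => hab (MulAction.injective x (((hmemK x).mp hx).1.trans e'.symm))
        exact hh1' (h3 h a b (x • b) hab hxb.symm hxa.symm ha hb
          (by rw [← mul_smul, e, mul_smul, show h • b = b from hb]))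
    let f : K → K := fun x => ⟨(x : G) * (h * (x : G)⁻¹ * h⁻¹), K.mul_mem x.2 (hKn h ha _ (K.inv_mem x.2))⟩
    have hf : Function.Injective f := fun x y e => by
      have e' : (x : G) * (h * (x : G)⁻¹ * h⁻¹) = (y : G) * (h * (y : G)⁻¹ * h⁻¹) := congrArg Subtype.val e
      have := hcK ((y : G)⁻¹ * x) (K.mul_mem (K.inv_mem y.2) x.2) (by
        calc h * ((y : G)⁻¹ * x) = ((y : G)⁻¹ * ((y : G) * (h * (y : G)⁻¹ * h⁻¹))) * h * x := by group
          _ = ((y : G)⁻¹ * ((x : G) * (h * (x : G)⁻¹ * h⁻¹))) * h * x := by rw [e']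
          _ = (y : G)⁻¹ * x * h := by group)
      exact Subtype.ext (inv_mul_eq_one.mp this).symm
    intro x hx
    obtain ⟨y, hy⟩ := Finite.injective_iff_surjective.mp hf ⟨x, hx⟩
    have e : (y : G) * (h * (y : G)⁻¹ * h⁻¹) = x := congrArg Subtype.val hy
    rw [← e, show (y : G) * (h * (y : G)⁻¹ * h⁻¹) = (y : G) * h * (y : G)⁻¹ * h⁻¹ by group]
    exact mul_mem (Subgroup.Normal.conj_mem inferInstance h hhN _) (inv_mem hhN)
  rw [is_two_pretransitive_iff]
  have key : ∀ p r : Ω, p ≠ r → ∃ n : N, n • a = p ∧ n • b = r := by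
    intro p r hpr
    obtain ⟨n, hn⟩ := hNt.exists_smul_eq a p
    obtain ⟨x, hx, xb⟩ := hKt b (n⁻¹ • r) hab.symm (fun e => hpr (by rw [← hn, ← e, smul_inv_smul]))
    refine ⟨n * ⟨x, hKN hx⟩, ?_, ?_⟩
    · rw [mul_smul, show (⟨x, hKN hx⟩ : N) • a = a from ((hmemK x).mp hx).1, hn]
    · rw [mul_smul, show (⟨x, hKN hx⟩ : N) • b = n⁻¹ • r from xb, smul_inv_smul]
  intro p q r s hpq hrs
  obtain ⟨u, ua, ub⟩ := key p q hpq
  obtain ⟨v, va, vb⟩ := key r s hrs
  exact ⟨v * u⁻¹, by rw [mul_smul, ← ua, inv_smul_smul, va], by rw [mul_smul, ← ub, inv_smul_smul, vb]⟩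

/-- regular normal subgroups of doubly transitive groups are abelian. -/
theorem regular_center [Finite Ω] [FaithfulSMul G Ω] (h2 : IsMultiplyPretransitive G Ω 2) (M : Subgroup G) [M.Normal]
    (hMt : IsPretransitive M Ω) (hreg : ∀ x ∈ M, ∀ a : Ω, x • a = a → x = 1) :
    ∀ x ∈ M, ∀ y ∈ M, x * y = y * x := by
  classical
  haveI : Finite G := Finite.of_injective (fun g : G => (g • · : Ω → Ω))
    (fun g k e => FaithfulSMul.eq_of_smul_eq_smul (α := Ω) (congrFun e))
  rcases M.bot_or_exists_ne_one with e | ⟨x₀, hx₀, hx₀1⟩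
  · intro x hx y hy; rw [e, Subgroup.mem_bot] at hx hy; rw [hx, hy]
  obtain ⟨a⟩ : Nonempty Ω := by
    by_contra hc
    exact hx₀1 (FaithfulSMul.eq_of_smul_eq_smul (α := Ω) fun z => absurd ⟨z⟩ hc)
  have hinj : ∀ x ∈ M, ∀ y ∈ M, x • a = y • a → x = y := fun x hx y hy e =>
    (inv_mul_eq_one.mp (hreg _ (mul_mem (inv_mem hy) hx) a (by rw [mul_smul, e, inv_smul_smul]))).symm
  have hconj : ∀ x ∈ M, x ≠ 1 → ∀ y ∈ M, y ≠ 1 → IsConj x y := by
    intro x hx hx1 y hy hy1
    obtain ⟨g, ga, gx⟩ := is_two_pretransitive_iff.mp h2 (fun e => hx1 (hreg x hx a e.symm) : a ≠ x • a)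
      (fun e => hy1 (hreg y hy a e.symm) : a ≠ y • a)
    refine isConj_iff.mpr ⟨g, hinj _ (Subgroup.Normal.conj_mem inferInstance x hx g) y hy ?_⟩
    rw [mul_smul, mul_smul, show g⁻¹ • a = a from inv_smul_eq_iff.mpr ga.symm, gx]
  obtain ⟨p, hp, hpdvd⟩ := Nat.exists_prime_and_dvd (n := Nat.card M) (by
    intro e
    rw [Subgroup.eq_bot_of_card_eq M e, Subgroup.mem_bot] at hx₀
    exact hx₀1 hx₀)
  haveI : Fact p.Prime := ⟨hp⟩
  obtain ⟨z, hz⟩ := exists_prime_orderOf_dvd_card' (G := M) p hpdvd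
  have hpow : ∀ x ∈ M, x ^ p = 1 := by
    intro x hx
    by_cases hx1 : x = 1
    · rw [hx1, one_pow]
    obtain ⟨g, hg⟩ := isConj_iff.mp (hconj (z : G) z.2 (fun e => hp.ne_one (by
      rw [← hz, show z = 1 from Subtype.ext e, orderOf_one])) x hx hx1)
    rw [← hg, conj_pow, show (z : G) ^ p = 1 from congrArg Subtype.val (hz ▸ pow_orderOf_eq_one z)]
    simp
  have hpM : IsPGroup p M := fun x => ⟨1, Subtype.ext (by simpa using hpow x x.2)⟩
  haveI : Nontrivial M := ⟨⟨⟨x₀, hx₀⟩, 1, fun e => hx₀1 (congrArg Subtype.val e)⟩⟩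
  haveI := hpM.center_nontrivial
  obtain ⟨⟨c, hc⟩, hc1⟩ := exists_ne (1 : Subgroup.center M)
  intro x hx y hy
  by_cases hx1 : x = 1
  · rw [hx1, one_mul, mul_one]
  obtain ⟨g, hg⟩ := isConj_iff.mp (hconj (c : G) c.2 (fun e => hc1 (Subtype.ext (Subtype.ext e))) x hx hx1)
  have := congrArg (fun w : G => g * w * g⁻¹) (congrArg Subtype.val
    (Subgroup.mem_center_iff.mp hc ⟨g⁻¹ * y * g, by simpa using Subgroup.Normal.conj_mem inferInstance y hy g⁻¹⟩))
  simp only [Subgroup.coe_mul] at this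
  rw [← hg]
  calc g * (c : G) * g⁻¹ * y = g * ((c : G) * (g⁻¹ * y * g)) * g⁻¹ := by group
    _ = g * ((g⁻¹ * y * g) * (c : G)) * g⁻¹ := this.symm
    _ = y * (g * (c : G) * g⁻¹) := by group

theorem isZassenhaus_normal [Finite Ω] (hZ : IsZassenhausGroup G Ω) (N : Subgroup G) [N.Normal] (hN : N ≠ ⊥) :
    IsZassenhausGroup N Ω := by
  obtain ⟨hN2, hNfix⟩ := two_trans_of_normal hZ N hN
  have hZ' := hZ
  obtain ⟨hf, h2, h3, hfix, hreg⟩ := hZ
  haveI := hf
  haveI : FaithfulSMul N Ω := ⟨fun {x y} e => Subtype.ext (FaithfulSMul.eq_of_smul_eq_smul (α := Ω) e)⟩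
  refine ⟨inferInstance, hN2, fun g a b c hab hbc hac ga gb gc => Subtype.ext (h3 g a b c hab hbc hac ga gb gc), hNfix, ?_⟩
  intro M hM hMt
  by_contra hc
  push Not at hc
  haveI := hM
  haveI : Finite G := Finite.of_injective (fun g : G => (g • · : Ω → Ω))
    (fun g k e => FaithfulSMul.eq_of_smul_eq_smul (α := Ω) (congrFun e))
  have hsemi : ∀ x ∈ M, ∀ a : Ω, x • a = a → x = 1 := fun x hx a e => by
    have : (⟨x, hx⟩ : M) ∈ stabilizer M a := e
    rw [hc a, Subgroup.mem_bot] at this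
    exact congrArg Subtype.val this
  have hcomm := regular_center hN2 M hMt hsemi
  obtain ⟨-, -, a₀, -, -⟩ := hfix
  -- every N-normal regular subgroup equals M
  have huniq : ∀ (L : Subgroup N), L.Normal → (∀ x ∈ L, ∀ a : Ω, x • a = a → x = 1) → L ≠ ⊥ → L ≤ M := by
    intro L hL hLs hLne x hx
    haveI := hL
    obtain ⟨⟨m, hm⟩, hmx⟩ := hMt.exists_smul_eq a₀ (x • a₀)
    have hmx' : m • a₀ = x • a₀ := hmx
    by_cases hint : L ⊓ M = ⊥
    · -- L centralises M
      exfalso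
      have hcLM : ∀ u ∈ L, ∀ v ∈ M, u * v = v * u := fun u hu v hv =>
        (Subgroup.commute_of_normal_of_disjoint L M hL hM (disjoint_iff.mpr hint) u v hu hv).eq
      obtain ⟨u, hu, hu1⟩ := L.bot_or_exists_ne_one.resolve_left hLne
      obtain ⟨⟨v, hv⟩, hvu⟩ := hMt.exists_smul_eq a₀ (u • a₀)
      have hvu' : v • a₀ = u • a₀ := hvu
      have hw : (v⁻¹ * u) = 1 := by
        refine FaithfulSMul.eq_of_smul_eq_smul (α := Ω) fun c => ?_
        obtain ⟨⟨w, hw⟩, rfl⟩ := hMt.exists_smul_eq a₀ c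
        show (v⁻¹ * u) • (w • a₀) = (1 : N) • (w • a₀)
        rw [one_smul, ← mul_smul, mul_assoc, hcLM u hu w hw, ← mul_assoc, hcomm v⁻¹ (inv_mem hv) w hw,
          mul_assoc, mul_smul, mul_smul, ← hvu', inv_smul_smul]
      rw [inv_mul_eq_one] at hw
      exact hu1 (Subgroup.mem_bot.mp (hint ▸ ⟨hu, hw ▸ hv⟩))
    · obtain ⟨⟨u, huL, huM⟩, hu1⟩ : ∃ u : (L ⊓ M : Subgroup N), u ≠ 1 := by
        by_contra hall; push Not at hall
        exact hint ((Subgroup.eq_bot_iff_forall _).mpr fun z hz => congrArg Subtype.val (hall ⟨z, hz⟩))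
      have hu1' : u ≠ 1 := fun e => hu1 (Subtype.ext e)
      by_cases hx1 : x = 1
      · rw [hx1]; exact one_mem M
      obtain ⟨g, ga, gu⟩ := is_two_pretransitive_iff.mp hN2
        (fun e => hu1' (hsemi u huM a₀ e.symm) : a₀ ≠ u • a₀) (fun e => hx1 (hLs x hx a₀ e.symm) : a₀ ≠ x • a₀)
      have hgx : g * u * g⁻¹ = x := by
        have := hLs (x⁻¹ * (g * u * g⁻¹)) (mul_mem (inv_mem hx) (hL.conj_mem u huL g)) a₀
          (by rw [mul_smul, mul_smul, mul_smul, show g⁻¹ • a₀ = a₀ from inv_smul_eq_iff.mpr ga.symm, gu, inv_smul_smul])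
        exact (inv_mul_eq_one.mp this).symm
      exact hgx ▸ hM.conj_mem u huM g
  set M' := M.map N.subtype with hM'
  have hM'n : M'.Normal := ⟨fun x hx g => by
    obtain ⟨y, hy, rfl⟩ := hx
    let φ : N ≃* N := MulAut.conjNormal g
    have hLn : (M.map φ.toMonoidHom).Normal := Subgroup.Normal.map hM _ φ.surjective
    have hLs : ∀ z ∈ M.map φ.toMonoidHom, ∀ a : Ω, z • a = a → z = 1 := by
      rintro _ ⟨w, hw, rfl⟩ a e
      have e1 : (g * (w : G) * g⁻¹) • a = a := by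
        have : ((φ w : N) : G) • a = a := e
        simpa [φ, MulAut.conjNormal_apply] using this
      rw [mul_smul, mul_smul, ← eq_inv_smul_iff] at e1
      rw [hsemi w hw _ e1, map_one]
    have hMne : M.map φ.toMonoidHom ≠ ⊥ := fun e => by
      replace e := (Subgroup.map_eq_bot_iff_of_injective M (f := φ.toMonoidHom) φ.injective).mp e
      obtain ⟨u, hu, a, b, hab, ua, ub⟩ := hNfix
      obtain ⟨⟨v, hv⟩, hvb⟩ := hMt.exists_smul_eq a b
      rw [e, Subgroup.mem_bot] at hv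
      subst hv
      exact hab ((one_smul N a).symm.trans hvb)
    exact ⟨φ y, huniq _ hLn hLs hMne ⟨y, hy, rfl⟩, by simp [φ, MulAut.conjNormal_apply]⟩⟩
  refine no_regular hZ' M' hM'n ⟨fun x y => ?_⟩ fun a => (Subgroup.eq_bot_iff_forall _).mpr fun x hx => ?_
  · obtain ⟨⟨v, hv⟩, hvx⟩ := hMt.exists_smul_eq x y
    exact ⟨⟨(v : G), ⟨v, hv, rfl⟩⟩, hvx⟩
  · obtain ⟨⟨_, v, hv, rfl⟩, hx'⟩ : ∃ z : M', z = x := ⟨x, rfl⟩
    subst hx'
    exact Subtype.ext (by show N.subtype v = 1; rw [hsemi v hv a hx, map_one])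

theorem isSimpleGroup_of_odd [Fintype Ω] (hZ : IsZassenhausGroup G Ω) (hodd : Odd (Fintype.card Ω)) :
    IsSimpleGroup G := by
  classical
  obtain ⟨hf, h2, h3, hfix, hreg⟩ := id hZ
  haveI := hf
  haveI : Finite G := Finite.of_injective (fun g : G => (g • · : Ω → Ω))
    (fun g k e => FaithfulSMul.eq_of_smul_eq_smul (α := Ω) (congrFun e))
  obtain ⟨g₀, hg₀, a₀, b₀, hab₀, -, -⟩ := hfix
  haveI : Nontrivial G := ⟨g₀, 1, hg₀⟩
  constructor
  intro N hNn
  by_cases hN : N = ⊥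
  · exact Or.inl hN
  right
  haveI := hNn
  obtain ⟨hN2, -⟩ := two_trans_of_normal hZ N hN
  -- an involution of N
  obtain ⟨s, sa, sb⟩ := is_two_pretransitive_iff.mp hN2 hab₀ hab₀.symm
  have heven : 2 ∣ Nat.card N := by
    refine Nat.dvd_trans ?_ (orderOf_dvd_natCard s)
    by_contra hodd'
    obtain ⟨j, hj⟩ := Nat.odd_iff.mpr (Nat.two_dvd_ne_zero.mp hodd')
    have h2s : ∀ i : ℕ, (s ^ (2 * i)) • a₀ = a₀ := fun i => by
      induction i with
      | zero => simp
      | succ i ih => rw [Nat.mul_succ, pow_add, mul_smul, sq, mul_smul, sa, sb, ih]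
    have := pow_orderOf_eq_one s
    rw [hj, pow_succ'] at this
    have e := congrArg (fun z : N => z • a₀) this
    simp only [mul_smul, h2s, one_smul, sa] at e
    exact hab₀ e.symm
  haveI : Fact (Nat.Prime 2) := ⟨Nat.prime_two⟩
  obtain ⟨t, ht⟩ := exists_prime_orderOf_dvd_card' (G := N) 2 heven
  have htt : (t : G) * (t : G) = 1 := by
    have := ht ▸ pow_orderOf_eq_one t
    rw [sq] at this
    exact congrArg Subtype.val this
  have ht1 : (t : G) ≠ 1 := fun e => by
    rw [show t = 1 from Subtype.ext e, orderOf_one] at ht; exact absurd ht (by norm_num)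
  obtain ⟨c, hc⟩ : ∃ c : Ω, (t : G) • c = c := by
    have := Equiv.Perm.card_compl_support_modEq (p := 2) (n := 1) (σ := (MulAction.toPerm (t : G) : Equiv.Perm Ω))
      (Equiv.ext fun x => by
        rw [pow_one, sq, Equiv.Perm.mul_apply, MulAction.toPerm_apply, MulAction.toPerm_apply, ← mul_smul, htt, one_smul]
        rfl)
    obtain ⟨j, hj⟩ := hodd
    rw [hj, Nat.ModEq] at this
    obtain ⟨x, hx⟩ : ((MulAction.toPerm (t : G)).supportᶜ).Nonempty := Finset.card_pos.mp (by omega)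
    exact ⟨x, by simpa using hx⟩
  obtain ⟨b, hb⟩ : ∃ b : Ω, (t : G) • b ≠ b := by
    by_contra hall; push Not at hall
    exact ht1 (FaithfulSMul.eq_of_smul_eq_smul (α := Ω) fun z => by rw [hall z, one_smul])
  set d := (t : G) • b
  have htd : (t : G) • d = b := by rw [← mul_smul, htt, one_smul]
  set H := stabilizer G b ⊓ stabilizer G d
  have hti : (t : G)⁻¹ = t := inv_eq_of_mul_eq_one_right htt
  have hHN : H ≤ N := by
    let f : H → H := fun x => ⟨(x : G) * ((t : G) * (x : G)⁻¹ * (t : G)), by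
      obtain ⟨x, hx1, hx2⟩ := x
      have hx1' : x⁻¹ • b = b := inv_smul_eq_iff.mpr (mem_stabilizer_iff.mp hx1).symm
      have hx2' : x⁻¹ • d = d := inv_smul_eq_iff.mpr (mem_stabilizer_iff.mp hx2).symm
      refine Subgroup.mem_inf.mpr ⟨mem_stabilizer_iff.mpr ?_, mem_stabilizer_iff.mpr ?_⟩
      · rw [mul_smul, mul_smul, mul_smul, hx2', htd]; exact hx1
      · rw [mul_smul, mul_smul, mul_smul, htd, hx1']; exact hx2⟩
    have hf' : Function.Injective f := fun x y e => by
      have e' : (x : G) * ((t : G) * (x : G)⁻¹ * t) = (y : G) * ((t : G) * (y : G)⁻¹ * t) := congrArg Subtype.val e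
      set z := (y : G)⁻¹ * x
      have hz : z * t = t * z := by
        calc z * t = (y : G)⁻¹ * ((x : G) * ((t : G) * (x : G)⁻¹ * t)) * (t : G)⁻¹ * x := by simp only [z]; group
          _ = (y : G)⁻¹ * ((y : G) * ((t : G) * (y : G)⁻¹ * t)) * (t : G)⁻¹ * x := by rw [e']
          _ = t * z := by simp only [z]; group
      have hzH : z ∈ H := mul_mem (inv_mem y.2) x.2
      have hzb : z • b = b := mem_stabilizer_iff.mp (Subgroup.mem_inf.mp hzH).1
      have hzd : z • d = d := mem_stabilizer_iff.mp (Subgroup.mem_inf.mp hzH).2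
      have hzc : z • c = c := by
        by_contra hne
        have htc' : (t : G) • (z • c) = z • c := by rw [← mul_smul, ← hz, mul_smul, hc]
        -- t fixes two distinct points, and a third one exists by parity
        have := Equiv.Perm.card_compl_support_modEq (p := 2) (n := 1) (σ := (MulAction.toPerm (t : G) : Equiv.Perm Ω))
          (Equiv.ext fun x => by
            rw [pow_one, sq, Equiv.Perm.mul_apply, MulAction.toPerm_apply, MulAction.toPerm_apply, ← mul_smul, htt, one_smul]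
            rfl)
        obtain ⟨j, hj⟩ := hodd
        rw [hj, Nat.ModEq] at this
        have hcard : ((MulAction.toPerm (t : G) : Equiv.Perm Ω).supportᶜ).card ≤ 2 := by
          by_contra hgt; push Not at hgt
          obtain ⟨p, q, r, hp, hq, hr, hpq, hpr, hqr⟩ := Finset.two_lt_card_iff.mp hgt
          simp at hp hq hr
          exact ht1 (h3 _ p q r hpq hqr hpr hp hq hr)
        have h2' : 2 ≤ ((MulAction.toPerm (t : G) : Equiv.Perm Ω).supportᶜ).card :=
          Finset.one_lt_card.mpr ⟨c, by simpa using hc, z • c, by simpa using htc', fun e => hne e.symm⟩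
        omega
      have hz1 : z = 1 := h3 z b d c (Ne.symm hb) (fun e => hb (e.trans (by rw [← htd, e, hc])))
        (fun e => hb (show (t : G) • b = b by rw [e, hc])) hzb hzd hzc
      exact Subtype.ext (inv_mul_eq_one.mp hz1).symm
    intro x hx
    obtain ⟨y, hy⟩ := Finite.injective_iff_surjective.mp hf' ⟨x, hx⟩
    have e : (y : G) * ((t : G) * (y : G)⁻¹ * (t : G)) = x := congrArg Subtype.val hy
    rw [← e, show (y : G) * ((t : G) * (y : G)⁻¹ * (t : G)) = ((y : G) * (t : G) * (y : G)⁻¹) * (t : G) by group]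
    exact mul_mem (hNn.conj_mem _ t.2 _) t.2
  rw [eq_top_iff]
  intro g _
  obtain ⟨n, nb, nd⟩ := is_two_pretransitive_iff.mp hN2 (Ne.symm hb : b ≠ d)
    (fun e => hb (MulAction.injective g e).symm : g • b ≠ g • d)
  have : (n : G)⁻¹ * g ∈ H := by
    refine Subgroup.mem_inf.mpr ⟨mem_stabilizer_iff.mpr ?_, mem_stabilizer_iff.mpr ?_⟩
    · rw [mul_smul, inv_smul_eq_iff]; exact nb.symm
    · rw [mul_smul, inv_smul_eq_iff]; exact nd.symm
  have := mul_mem n.2 (hHN this)
  rwa [mul_inv_cancel_left] at this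

end CfsgLib.Zassenhaus
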